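import Cfsg.Agent.Lib.Helper13.PStab5

set_option autoImplicit false
open Cfsg

/-! Engel conditions on chief factors in the minimal configuration. -/

namespace Cfsg.Agent.Lib.Helper13

open Subgroup
open scoped commutatorElement

universe u

variable {X : Type*} [Group X]

theorem le_of_le_sup_commutator [Finite X] {p : ℕ} [Fact p.Prime] {U V P : Subgroup X} [V.Normal] (hP : IsPGroup p P)
    (hUP : U ≤ P) (h : U ≤ V ⊔ ⁅U, P⁆) : U ≤ V := by
  set π := QuotientGroup.mk' V with hπ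
  have h1 : U.map π ≤ ⁅U.map π, P.map π⁆ := by
    have h2 := Subgroup.map_mono (f := π) h
    rw [Subgroup.map_sup, map_commutator] at h2
    have h3 : V.map π = ⊥ := by
      rw [eq_bot_iff]
      rintro _ ⟨v, hv, rfl⟩
      exact (QuotientGroup.eq_one_iff v).mpr hv
    rwa [h3, bot_sup_eq] at h2
  have : Group.IsNilpotent ↥(P.map π) := (hP.map π).isNilpotent
  have h4 := eq_bot_of_le_commutator_nilpotent (Subgroup.map_mono hUP) h1
  intro u hu
  have h5 : π u ∈ U.map π := ⟨u, hu, rfl⟩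
  rw [h4, mem_bot] at h5
  exact (QuotientGroup.eq_one_iff u).mp h5

/-- **M1** -/
theorem InD.mem_pCore_of_comm [Finite X] {p : ℕ} [Fact p.Prime] {B K : Subgroup X} (h : InD p B K) (T : Sylow p X)
    {g : X} (hg : g ∈ (T : Subgroup X)) (hK : ∀ k ∈ K, ⁅k, g⁆ ∈ B) : g ∈ pCore p X := by
  have hBn := h.hBn
  have hKn := h.hKn
  have hBT : B ≤ (T : Subgroup X) := (Cfsg.Agent.H12.le_pCore hBn h.hBp).trans (Cfsg.Agent.H12.pCore_le_sylow T)
  have hCn : (sectionKernel K B).Normal := sectionKernel_normal K B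
  have hBC : B ≤ sectionKernel K B := le_sectionKernel_iff.mpr (commutator_le_left B K)
  set D := (T : Subgroup X) ⊓ sectionKernel K B with hD
  have hDn : D.Normal := by
    constructor
    intro d hd x
    have hx : x ∈ K ⊔ (T : Subgroup X) := by
      rw [h.sup_sylow T]
      exact mem_top x
    obtain ⟨k, hk, t, ht, rfl⟩ := mem_sup_of_normal_left.mp hx
    set d' := t * d * t⁻¹ with hd'
    have h1 : d' ∈ D := Subgroup.mem_inf.mpr
      ⟨Subgroup.mul_mem _ (Subgroup.mul_mem _ ht hd.1) (Subgroup.inv_mem _ ht), hCn.conj_mem d hd.2 t⟩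
    have h2 : d' * k * d'⁻¹ * k⁻¹ ∈ B := mem_sectionKernel_iff.mp h1.2 k hk
    have h3 : k * t * d * (k * t)⁻¹ = (d' * k * d'⁻¹ * k⁻¹)⁻¹ * d' := by
      rw [hd']
      group
    rw [h3]
    exact Subgroup.mul_mem _ (Subgroup.mem_inf.mpr ⟨hBT (B.inv_mem h2), hBC (B.inv_mem h2)⟩) h1
  have hDp : IsPGroup p D := T.2.to_le inf_le_left
  apply Cfsg.Agent.H12.le_pCore hDn hDp
  refine Subgroup.mem_inf.mpr ⟨hg, mem_sectionKernel_iff.mpr ?_⟩
  intro k hk
  have h1 := B.inv_mem (hK k hk)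
  rwa [commutatorElement_inv, commutatorElement_def] at h1

theorem InD.chief_engel [Finite X] {p n : ℕ} [hp : Fact p.Prime] {B K : Subgroup X} (h : InD p B K) (T : Sylow p X)
    (hT : IsCoatom (T : Subgroup X)) {g : X} (hg : g ∈ (T : Subgroup X)) {U V : Subgroup X} (hUV : IsChiefFactor U V)
    (hUB : U ≤ B) (hn : n < p) (hq : iterCommutator U (zpowers g) n ≤ V) :
    g ∈ pCore p X ∨ ⁅U, zpowers g⁆ ≤ V := by
  have hBn := h.hBn
  have hKn := h.hKn
  obtain ⟨hlt, hUn, hVn, hchief⟩ := hUV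
  have hBT : B ≤ (T : Subgroup X) := (Cfsg.Agent.H12.le_pCore hBn h.hBp).trans (Cfsg.Agent.H12.pCore_le_sylow T)
  have hUp : IsPGroup p U := h.hBp.to_le hUB
  have ha : ⁅U, B⁆ ≤ V := by
    have h1 : (V ⊔ ⁅U, B⁆).Normal := inferInstance
    rcases hchief _ h1 le_sup_left (sup_le hlt.le (commutator_le_left U B)) with h2 | h2
    · rw [← h2]
      exact le_sup_right
    · exact absurd (le_of_le_sup_commutator h.hBp hUB h2.ge) (not_le_of_gt hlt)
  have hb : ⁅U, U⁆ ≤ V := (commutator_mono le_rfl hUB).trans ha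
  obtain ⟨m, hm⟩ := T.2 ⟨g, hg⟩
  have hgm : g ^ p ^ m = 1 := congrArg Subtype.val hm
  have hc : ∀ k ∈ K, ⁅k, g⁆ ∈ sectionKernel U V := fun k hk =>
    comm_mem_sectionKernel h.hab h.hBp h.hpel hUp hb ha hgm hn hq hk
  have hCn : (sectionKernel U V).Normal := sectionKernel_normal U V
  have hBC : B ≤ sectionKernel U V := le_sectionKernel_iff.mpr (by rw [commutator_comm]; exact ha)
  have hLn : (sectionKernel U V ⊓ K).Normal := inferInstance
  rcases eq_or_eq_of_coatom h.hpel T hT (le_inf hBC h.hBK) inf_le_right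
    (by rw [normalizer_eq_top]; exact le_top) with hL | hL
  · left
    apply h.mem_pCore_of_comm T hg
    intro k hk
    rw [← hL]
    refine Subgroup.mem_inf.mpr ⟨hc k hk, ?_⟩
    rw [commutatorElement_def, mul_assoc, mul_assoc, ← mul_assoc g]
    exact K.mul_mem hk (hKn.conj_mem _ (K.inv_mem hk) g)
  · right
    have hKC : K ≤ sectionKernel U V := by
      rw [← hL]
      exact inf_le_left
    have hKV : ∀ k ∈ K, ∀ u ∈ U, ⁅k, u⁆ ∈ V := fun k hk u hu => by
      rw [commutatorElement_def]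
      exact mem_sectionKernel_iff.mp (hKC hk) u hu
    have h1 : (V ⊔ ⁅U, (⊤ : Subgroup X)⁆).Normal := inferInstance
    rcases hchief _ h1 le_sup_left (sup_le hlt.le (commutator_le_left U ⊤)) with h2 | h2
    · exact (commutator_mono le_rfl le_top).trans (h2 ▸ le_sup_right)
    · exfalso
      have h3 : ⁅U, (⊤ : Subgroup X)⁆ ≤ V ⊔ ⁅U, (T : Subgroup X)⁆ := by
        rw [commutator_le]
        intro u hu x _
        have hx : x ∈ K ⊔ (T : Subgroup X) := by
          rw [h.sup_sylow T]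
          exact mem_top x
        obtain ⟨k, hk, t, ht, rfl⟩ := mem_sup_of_normal_left.mp hx
        have hw : ⁅u, t⁆ ∈ U := by
          rw [commutatorElement_def, mul_assoc, mul_assoc, ← mul_assoc t]
          exact U.mul_mem hu (hUn.conj_mem _ (U.inv_mem hu) t)
        have h4 : ⁅u, k * t⁆ = (⁅k, u⁆)⁻¹ * (⁅k, ⁅u, t⁆⁆ * ⁅u, t⁆) := by
          simp only [commutatorElement_def]
          group
        rw [h4]
        exact Subgroup.mul_mem _ (le_sup_left (a := V) (V.inv_mem (hKV k hk u hu)))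
          (Subgroup.mul_mem _ (le_sup_left (a := V) (hKV k hk _ hw))
            (le_sup_right (a := V) (commutator_mem_commutator hu ht)))
      have h5 : U ≤ V ⊔ ⁅U, (T : Subgroup X)⁆ := h2.ge.trans (sup_le le_sup_left h3)
      exact absurd (le_of_le_sup_commutator T.2 (hUB.trans hBT) h5) (not_le_of_gt hlt)

end Cfsg.Agent.Lib.Helper13
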