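import Mathlib

set_option autoImplicit false

namespace Cfsg.Agent.Lib.Helper13

/-- All `p`-subgroups of `G` are abelian. -/
def AbP (p : ℕ) (G : Type*) [Group G] : Prop :=
  ∀ Q : Subgroup G, IsPGroup p Q → ∀ x ∈ Q, ∀ y ∈ Q, x * y = y * x

theorem AbP.of_injective {p : ℕ} {G H : Type*} [Group G] [Group H] (h : AbP p G) (f : H →* G)
    (hf : Function.Injective f) : AbP p H := by
  intro Q hQ x hx y hy
  apply hf
  rw [map_mul, map_mul]
  exact h (Q.map f) (hQ.map f) _ (Subgroup.mem_map_of_mem f hx) _ (Subgroup.mem_map_of_mem f hy)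

theorem AbP.subgroup {p : ℕ} {G : Type*} [Group G] (h : AbP p G) (H : Subgroup G) : AbP p H :=
  h.of_injective H.subtype H.subtype_injective

theorem AbP.of_surjective {p : ℕ} [Fact p.Prime] {G G' : Type*} [Group G] [Finite G] [Group G'] (h : AbP p G)
    (f : G →* G') (hf : Function.Surjective f) : AbP p G' := by
  intro Q hQ x hx y hy
  obtain ⟨P', hQP⟩ := hQ.exists_le_sylow
  obtain ⟨P, rfl⟩ := Sylow.mapSurjective_surjective hf p P'
  obtain ⟨a, ha, rfl⟩ := hQP hx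
  obtain ⟨b, hb, rfl⟩ := hQP hy
  rw [← map_mul, ← map_mul, h P P.2 a ha b hb]

open Matrix in
/-- Every nonzero vector is the first column of a matrix in `SL₂`. -/
theorem exists_sl2_col {F : Type*} [Field F] (v : Fin 2 → F) (hv : v ≠ 0) :
    ∃ P : Matrix.SpecialLinearGroup (Fin 2) F, (P : Matrix (Fin 2) (Fin 2) F) *ᵥ ![1, 0] = v := by
  by_cases hx : v 0 = 0
  · have hy : v 1 ≠ 0 := by
      intro hy
      apply hv
      ext i
      fin_cases i
      · exact hx
      · exact hy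
    have hd : (!![v 0, -(v 1)⁻¹; v 1, 0] : Matrix (Fin 2) (Fin 2) F).det = 1 := by
      rw [Matrix.det_fin_two_of]
      field_simp
      simp
    refine ⟨⟨_, hd⟩, ?_⟩
    ext i
    fin_cases i <;> simp [Matrix.mulVec, dotProduct, Fin.sum_univ_two]
  · have hd : (!![v 0, 0; v 1, (v 0)⁻¹] : Matrix (Fin 2) (Fin 2) F).det = 1 := by
      rw [Matrix.det_fin_two_of, mul_inv_cancel₀ hx]
      simp
    refine ⟨⟨_, hd⟩, ?_⟩
    ext i
    fin_cases i <;> simp [Matrix.mulVec, dotProduct, Fin.sum_univ_two]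

open Matrix in
/-- Two elements of `SL₂` fixing a common nonzero vector commute. -/
theorem sl2_commute_of_common_fixed {F : Type*} [Field F] (v : Fin 2 → F) (hv : v ≠ 0)
    (g h : Matrix.SpecialLinearGroup (Fin 2) F) (hg : (g : Matrix (Fin 2) (Fin 2) F) *ᵥ v = v)
    (hh : (h : Matrix (Fin 2) (Fin 2) F) *ᵥ v = v) : g * h = h * g := by
  obtain ⟨P, hP⟩ := exists_sl2_col v hv
  have key : ∀ k : Matrix.SpecialLinearGroup (Fin 2) F, (k : Matrix (Fin 2) (Fin 2) F) *ᵥ v = v →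
      ((P⁻¹ * k * P : Matrix.SpecialLinearGroup (Fin 2) F) : Matrix (Fin 2) (Fin 2) F) 0 0 = 1 ∧
      ((P⁻¹ * k * P : Matrix.SpecialLinearGroup (Fin 2) F) : Matrix (Fin 2) (Fin 2) F) 1 0 = 0 ∧
      ((P⁻¹ * k * P : Matrix.SpecialLinearGroup (Fin 2) F) : Matrix (Fin 2) (Fin 2) F) 1 1 = 1 := by
    intro k hk
    have h1 : ((P⁻¹ * k * P : Matrix.SpecialLinearGroup (Fin 2) F) : Matrix (Fin 2) (Fin 2) F) *ᵥ ![1, 0] = ![1, 0] := by
      rw [Matrix.SpecialLinearGroup.coe_mul, Matrix.SpecialLinearGroup.coe_mul, ← Matrix.mulVec_mulVec,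
        ← Matrix.mulVec_mulVec, hP, hk, ← hP, Matrix.mulVec_mulVec, ← Matrix.SpecialLinearGroup.coe_mul,
        inv_mul_cancel, Matrix.SpecialLinearGroup.coe_one, Matrix.one_mulVec]
    set k' := (P⁻¹ * k * P : Matrix.SpecialLinearGroup (Fin 2) F)
    have e0 := congrFun h1 0
    have e1 := congrFun h1 1
    simp [Matrix.mulVec, dotProduct, Fin.sum_univ_two] at e0 e1
    have hdet := k'.det_coe
    rw [Matrix.det_fin_two, e0, e1] at hdet
    refine ⟨e0, e1, ?_⟩
    simpa using hdet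
  obtain ⟨g00, g10, g11⟩ := key g hg
  obtain ⟨h00, h10, h11⟩ := key h hh
  have hc : (P⁻¹ * g * P) * (P⁻¹ * h * P) = (P⁻¹ * h * P) * (P⁻¹ * g * P) := by
    apply Subtype.ext
    rw [Matrix.SpecialLinearGroup.coe_mul (P⁻¹ * g * P), Matrix.SpecialLinearGroup.coe_mul (P⁻¹ * h * P)]
    ext i j
    fin_cases i <;> fin_cases j <;>
      simp [Matrix.mul_apply, Fin.sum_univ_two, g00, g10, g11, h00, h10, h11, -Matrix.SpecialLinearGroup.coe_mul]
    ring
  calc g * h = P * ((P⁻¹ * g * P) * (P⁻¹ * h * P)) * P⁻¹ := by group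
    _ = P * ((P⁻¹ * h * P) * (P⁻¹ * g * P)) * P⁻¹ := by rw [hc]
    _ = h * g := by group

open Matrix in
/-- In defining characteristic all `p`-subgroups of `SL₂(K)` are abelian. -/
theorem abP_sl2 (p : ℕ) [Fact p.Prime] {K : Type*} [Field K] [Finite K] [CharP K p] :
    AbP p (Matrix.SpecialLinearGroup (Fin 2) K) := by
  intro Q hQ x hx y hy
  letI act : MulAction Q (Fin 2 → K) :=
    { smul := fun g v => ((g : Matrix.SpecialLinearGroup (Fin 2) K) : Matrix (Fin 2) (Fin 2) K) *ᵥ v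
      one_smul := fun v => by
        change ((1 : Matrix.SpecialLinearGroup (Fin 2) K) : Matrix (Fin 2) (Fin 2) K) *ᵥ v = v
        simp
      mul_smul := fun g h v => by
        change (((g : Matrix.SpecialLinearGroup (Fin 2) K) * h : Matrix.SpecialLinearGroup (Fin 2) K) : Matrix (Fin 2) (Fin 2) K) *ᵥ v =
          ((g : Matrix.SpecialLinearGroup (Fin 2) K) : Matrix (Fin 2) (Fin 2) K) *ᵥ (((h : Matrix.SpecialLinearGroup (Fin 2) K) : Matrix (Fin 2) (Fin 2) K) *ᵥ v)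
        rw [Matrix.SpecialLinearGroup.coe_mul, Matrix.mulVec_mulVec] }
  have hsmul : ∀ (g : Q) (v : Fin 2 → K), g • v = ((g : Matrix.SpecialLinearGroup (Fin 2) K) : Matrix (Fin 2) (Fin 2) K) *ᵥ v :=
    fun g v => rfl
  have hdvd : p ∣ Nat.card (Fin 2 → K) := by
    have : Fintype K := Fintype.ofFinite K
    rw [Nat.card_eq_fintype_card, Fintype.card_fun, Fintype.card_fin]
    apply Dvd.dvd.pow _ two_ne_zero
    rw [← CharP.cast_eq_zero_iff K p]
    exact Nat.cast_card_eq_zero K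
  have h0 : (0 : Fin 2 → K) ∈ MulAction.fixedPoints Q (Fin 2 → K) := by
    intro g
    rw [hsmul, Matrix.mulVec_zero]
  obtain ⟨v, hv, hv0⟩ := hQ.exists_fixed_point_of_prime_dvd_card_of_fixed_point (Fin 2 → K) hdvd h0
  exact sl2_commute_of_common_fixed v hv0.symm x y (hv ⟨x, hx⟩) (hv ⟨y, hy⟩)

end Cfsg.Agent.Lib.Helper13
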