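import Cfsg.Agent.Lib.Helper13.FF4

set_option autoImplicit false
open Cfsg

/-! The faithful ambient group `V ⋊ G / C_G(V)` of a normal abelian subgroup `V`. -/

namespace Cfsg.Agent.Lib.Helper13

open Subgroup
open scoped commutatorElement

variable {G : Type*} [Group G]

section Amb

variable (V : Subgroup G) [V.Normal]

/-- the action of `G / C_G(V)` on `V` -/
def ambAct : G ⧸ centralizer (V : Set G) →* MulAut V :=
  QuotientGroup.lift _ (MulAut.conjNormal (H := V)) (fun g hg => by
    ext v
    rw [MulAut.conjNormal_apply, MulAut.one_apply]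
    rw [← mem_centralizer_iff.mp hg v.1 v.2, mul_inv_cancel_right])

/-- the ambient group -/
abbrev Amb := V ⋊[ambAct V] (G ⧸ centralizer (V : Set G))

/-- the embedding of `V` -/
def ambI : V →* Amb V := SemidirectProduct.inl

/-- the map from `G` -/
def ambR : G →* Amb V := SemidirectProduct.inr.comp (QuotientGroup.mk' _)

theorem ambI_injective : Function.Injective (ambI V) := SemidirectProduct.inl_injective

theorem amb_conj (g : G) (v : V) :
    ambR V g * ambI V v * (ambR V g)⁻¹ = ambI V (MulAut.conjNormal g v) := by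
  have h := SemidirectProduct.inl_aut (φ := ambAct V) (QuotientGroup.mk' _ g) v
  rw [map_inv] at h
  exact h.symm

theorem ambR_ker : (ambR V).ker = centralizer (V : Set G) := by
  unfold ambR
  rw [← MonoidHom.comap_ker, (MonoidHom.ker_eq_bot_iff _).mpr SemidirectProduct.inr_injective]
  exact QuotientGroup.ker_mk' _

instance [Finite G] : Finite (Amb V) :=
  Finite.of_equiv _ (SemidirectProduct.equivProd (φ := ambAct V)).symm

/-- the image of `V` -/
def ambV : Subgroup (Amb V) := (ambI V).range

instance : (ambV V).Normal := by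
  unfold ambV ambI
  rw [SemidirectProduct.range_inl_eq_ker_rightHom]
  infer_instance

theorem commute_iff (g : G) (v : V) :
    ambI V v * ambR V g = ambR V g * ambI V v ↔ (v : G) * g = g * v := by
  constructor
  · intro h
    have h1 := amb_conj V g v
    rw [← h, mul_inv_cancel_right] at h1
    have h2 := congrArg Subtype.val (ambI_injective V h1)
    rw [MulAut.conjNormal_apply] at h2
    conv_lhs => rw [h2]
    group
  · intro h
    have h1 := amb_conj V g v
    have h2 : MulAut.conjNormal g v = v := by
      apply Subtype.ext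
      rw [MulAut.conjNormal_apply, ← h, mul_inv_cancel_right]
    rw [h2] at h1
    conv_lhs => rw [← h1]
    group

theorem ambV_inf_centralizer (A : Subgroup G) :
    ambV V ⊓ centralizer ((A.map (ambR V) : Subgroup (Amb V)) : Set (Amb V)) =
      ((V ⊓ centralizer (A : Set G)).subgroupOf V).map (ambI V) := by
  ext x
  constructor
  · rintro ⟨⟨v, rfl⟩, hx⟩
    refine ⟨v, ?_, rfl⟩
    rw [SetLike.mem_coe, mem_subgroupOf]
    refine mem_inf.mpr ⟨v.2, ?_⟩
    rw [mem_centralizer_iff]
    intro a ha
    have h1 := mem_centralizer_iff.mp hx _ (mem_map_of_mem (ambR V) ha)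
    exact ((commute_iff V a v).mp h1.symm).symm
  · rintro ⟨v, hv, rfl⟩
    rw [SetLike.mem_coe, mem_subgroupOf] at hv
    refine mem_inf.mpr ⟨⟨v, rfl⟩, ?_⟩
    rw [mem_centralizer_iff]
    rintro _ ⟨a, ha, rfl⟩
    exact ((commute_iff V a v).mpr (mem_centralizer_iff.mp hv.2 a ha).symm).symm

theorem card_ambV_inf_centralizer (A : Subgroup G) :
    Nat.card ↥(ambV V ⊓ centralizer ((A.map (ambR V) : Subgroup (Amb V)) : Set (Amb V))) =
      Nat.card ↥(V ⊓ centralizer (A : Set G)) := by
  rw [ambV_inf_centralizer, card_map_of_injective (ambI_injective V)]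
  exact Nat.card_congr (subgroupOfEquivOfLe inf_le_left).toEquiv

theorem card_map_ambR [Finite G] (A : Subgroup G) :
    Nat.card (A.map (ambR V)) * Nat.card ↥(A ⊓ centralizer (V : Set G)) = Nat.card A := by
  rw [← relIndex_ker, ambR_ker, ← inf_relIndex_right, inf_comm, mul_comm]
  have h := relIndex_mul_relIndex ⊥ (A ⊓ centralizer (V : Set G)) A bot_le inf_le_left
  rwa [relIndex_bot_left, relIndex_bot_left] at h

end Amb

end Cfsg.Agent.Lib.Helper13
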