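import Cfsg.Agent.Lib.Helper13.Amb1

set_option autoImplicit false
open Cfsg

/-! Failure of factorization in `G / C_G(V)`: existence of `SL₂(p)` on a subgroup of order `p²`. -/

namespace Cfsg.Agent.Lib.Helper13

open Subgroup
open scoped commutatorElement

variable {G : Type*} [Group G] {p : ℕ}

theorem FFSetup.exists_SL [Finite G] [Fact p.Prime] {V H A : Subgroup G} (h : FFSetup p V H) (hA : A ≤ H)
    (hbo : IsBestOffenderOn p V A) (hA1 : A ≠ ⊥) :
    ∃ L : Subgroup G, L ≤ H ∧ (p = 2 ∨ p = 3) ∧ Nat.card ↥⁅V, L⁆ = p ^ 2 ∧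
      L ⊓ centralizer ((⁅V, L⁆ : Subgroup G) : Set G) = ⊥ ∧
      Nonempty (L ≃* Matrix.SpecialLinearGroup (Fin 2) (ZMod p)) := by
  obtain ⟨B, hB, hmin⟩ := (Set.toFinite {B : Subgroup G | B ≤ A ∧ IsBestOffenderOn p V B ∧ B ≠ ⊥}).exists_minimal
    ⟨A, le_rfl, hbo, hA1⟩
  obtain ⟨hBA, hBbo, hB1⟩ := hB
  have hcard : Nat.card B = p := by
    apply h.card_eq_of_min (hBA.trans hA) hBbo hB1
    intro C hC hCbo hC1
    exact le_antisymm hC (hmin ⟨hC.trans hBA, hCbo, hC1⟩ hC)
  have m : MinOff p V H B := ⟨h, hBA.trans hA, hBbo, hcard⟩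
  obtain ⟨x, hx, hxB⟩ := m.exists_not_mem
  have s := m.setup hx hxB
  exact ⟨_, s.sup_le, s.two_or_three, s.card_W, s.inf_centralizer_W, s.nonempty_equiv⟩

theorem le_normalizer_of_forall {L W : Subgroup G} (h : ∀ l ∈ L, ∀ w ∈ W, l * w * l⁻¹ ∈ W) :
    L ≤ normalizer (W : Set G) := by
  intro l hl
  rw [mem_normalizer_iff]
  intro w
  refine ⟨h l hl w, fun hw => ?_⟩
  have h1 := h l⁻¹ (inv_mem hl) _ hw
  have h2 : l⁻¹ * (l * w * l⁻¹) * l⁻¹⁻¹ = w := by group
  rwa [h2] at h1

section Amb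

variable (V : Subgroup G) [V.Normal]

theorem amb_isEA (hV : IsElementaryAbelian p V) : IsElementaryAbelian p (ambV V) := by
  rw [isEA_iff]
  constructor
  · rintro _ ⟨v, rfl⟩ _ ⟨w, rfl⟩
    rw [← map_mul, ← map_mul]
    congr 1
    exact Subtype.ext (IsEA.comm hV v.2 w.2)
  · rintro _ ⟨v, rfl⟩
    rw [← map_pow]
    have : v ^ p = 1 := Subtype.ext (hV.2 v.1 v.2)
    rw [this, map_one]

theorem amb_bestOffender [Finite G] {A : Subgroup G} (hA : IsBestOffenderOn p V A) :
    IsBestOffenderOn p (ambV V) (A.map (ambR V)) := by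
  obtain ⟨h1, h2, h3⟩ := hA
  refine ⟨?_, ?_, ?_⟩
  · intro B' hB'
    set B := A ⊓ B'.comap (ambR V) with hB
    have hmap : B.map (ambR V) = B' := by
      apply le_antisymm
      · rintro _ ⟨b, hb, rfl⟩
        exact hb.2
      · intro x hx
        obtain ⟨a, ha, rfl⟩ := hB' hx
        exact ⟨a, ⟨ha, hx⟩, rfl⟩
    have hinf : B ⊓ centralizer (V : Set G) = A ⊓ centralizer (V : Set G) := by
      apply le_antisymm (inf_le_inf_right _ inf_le_left)
      refine le_inf (le_inf inf_le_left ?_) inf_le_right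
      intro x hx
      have : x ∈ (ambR V).ker := by rw [ambR_ker]; exact hx.2
      rw [mem_comap, this]
      exact one_mem _
    have c1 := card_map_ambR V B
    have c2 := card_map_ambR V A
    rw [hmap, hinf] at c1
    have c3 := h1 B inf_le_left
    rw [← hmap, card_ambV_inf_centralizer, card_ambV_inf_centralizer, hmap]
    rw [← c1, ← c2] at c3
    have hpos : 0 < Nat.card ↥(A ⊓ centralizer (V : Set G)) := Nat.card_pos
    nlinarith
  · have h4 : ⁅A.map (ambR V), A.map (ambR V)⁆ = ⊥ := by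
      rw [← map_commutator, Subgroup.map_eq_bot_iff, ambR_ker]
      exact h2
    rw [h4]
    exact bot_le
  · rintro _ ⟨a, ha, rfl⟩
    have h4 : a ^ p ∈ (ambR V).ker := by rw [ambR_ker]; exact h3 a ha
    rw [← map_pow, h4]
    exact one_mem _

theorem amb_range_inf : (ambR V).range ⊓ centralizer (ambV V : Set (Amb V)) = ⊥ := by
  rw [eq_bot_iff]
  rintro _ ⟨⟨g, rfl⟩, hg⟩
  rw [mem_bot]
  have : g ∈ (ambR V).ker := by
    rw [ambR_ker, mem_centralizer_iff]
    intro v hv
    have h1 := mem_centralizer_iff.mp hg (ambI V ⟨v, hv⟩) ⟨_, rfl⟩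
    exact (commute_iff V g ⟨v, hv⟩).mp h1
  exact this

/-- `G / C_G(V)` is isomorphic to its image in the ambient group -/
noncomputable def ambE : G ⧸ centralizer (V : Set G) ≃* (ambR V).range :=
  (QuotientGroup.quotientMulEquivOfEq (ambR_ker V).symm).trans (QuotientGroup.quotientKerEquivRange (ambR V))

end Amb

theorem selfcent_congr {X Y : Type*} [Group X] [Group Y] (e : X ≃* Y)
    (hmap : (pPrimeCore p X).map e.toMonoidHom = pPrimeCore p Y)
    (h : centralizer (pPrimeCore p X : Set X) ≤ pPrimeCore p X) :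
    centralizer (pPrimeCore p Y : Set Y) ≤ pPrimeCore p Y := by
  intro y hy
  obtain ⟨x, rfl⟩ := e.surjective y
  rw [← hmap]
  refine ⟨x, h ?_, rfl⟩
  rw [mem_centralizer_iff]
  intro r hr
  apply e.injective
  rw [map_mul, map_mul]
  apply mem_centralizer_iff.mp hy
  rw [← hmap]
  exact ⟨r, hr, rfl⟩

/-- failure of factorization produces `SL₂(p)` acting on a subgroup of order `p²` -/
theorem exists_SL_section [Finite G] [Fact p.Prime] (V : Subgroup G) [V.Normal] (hV : IsElementaryAbelian p V)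
    (hS1 : centralizer (pPrimeCore p (G ⧸ centralizer (V : Set G)) : Set (G ⧸ centralizer (V : Set G)))
      ≤ pPrimeCore p (G ⧸ centralizer (V : Set G)))
    {A : Subgroup G} (hbo : IsBestOffenderOn p V A) (hA : ¬ A ≤ centralizer (V : Set G)) :
    (p = 2 ∨ p = 3) ∧ ∃ W L : Subgroup G, W ≤ V ∧ Nat.card W = p ^ 2 ∧ L ≤ normalizer (W : Set G) ∧
      L ⊓ centralizer (W : Set G) = centralizer (V : Set G) ∧
      Nonempty (L ⧸ (centralizer (V : Set G)).subgroupOf L ≃* Matrix.SpecialLinearGroup (Fin 2) (ZMod p)) := by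
  have hFF : FFSetup p (ambV V) (ambR V).range := by
    refine ⟨amb_isEA V hV, ?_, amb_range_inf V, ?_⟩
    · rw [normalizer_eq_top]
      exact le_top
    · exact selfcent_congr (ambE V) (Cfsg.H9.map_pPrimeCore p (ambE V)) hS1
  have hA1 : A.map (ambR V) ≠ ⊥ := by
    intro h
    rw [Subgroup.map_eq_bot_iff, ambR_ker] at h
    exact hA h
  obtain ⟨L', hL', hp, hcard, hfaith, ⟨φ⟩⟩ := hFF.exists_SL (map_le_range _ _) (amb_bestOffender V hbo) hA1
  have hWV : ⁅ambV V, L'⁆ ≤ ambV V := commutator_le_left _ _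
  have hLW : L' ≤ normalizer ((⁅ambV V, L'⁆ : Subgroup (Amb V)) : Set (Amb V)) :=
    normalizer_commutator_ge_right _ _
  have hmemW : ∀ w : G, w ∈ ((⁅ambV V, L'⁆ : Subgroup (Amb V)).comap (ambI V)).map V.subtype ↔
      ∃ hw : w ∈ V, ambI V ⟨w, hw⟩ ∈ ⁅ambV V, L'⁆ := by
    intro w
    constructor
    · rintro ⟨v, hv, rfl⟩
      exact ⟨v.2, hv⟩
    · rintro ⟨hw, h⟩
      exact ⟨⟨w, hw⟩, h, rfl⟩
  refine ⟨hp, ((⁅ambV V, L'⁆ : Subgroup (Amb V)).comap (ambI V)).map V.subtype, L'.comap (ambR V),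
    map_subtype_le _, ?_, ?_, ?_, ?_⟩
  · rw [card_map_of_injective V.subtype_injective, ← hcard,
      ← card_map_of_injective (ambI_injective V), map_comap_eq_self hWV]
  · apply le_normalizer_of_forall
    intro l hl w hw
    obtain ⟨hwV, hw'⟩ := (hmemW w).mp hw
    refine (hmemW _).mpr ⟨‹V.Normal›.conj_mem w hwV l, ?_⟩
    have h1 := amb_conj V l ⟨w, hwV⟩
    have h2 : (MulAut.conjNormal l (⟨w, hwV⟩ : V)) = ⟨l * w * l⁻¹, ‹V.Normal›.conj_mem w hwV l⟩ :=
      Subtype.ext (MulAut.conjNormal_apply _ _)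
    rw [← h2, ← h1]
    exact conj_mem_of_mem_normalizer (hLW hl) hw'
  · apply le_antisymm
    · rintro l ⟨hl, hlc⟩
      rw [← ambR_ker, MonoidHom.mem_ker, ← mem_bot, ← hfaith]
      refine mem_inf.mpr ⟨hl, ?_⟩
      rw [mem_centralizer_iff]
      intro x hx
      obtain ⟨v, rfl⟩ := hWV hx
      apply (commute_iff V l v).mpr
      exact mem_centralizer_iff.mp hlc v.1 ((hmemW _).mpr ⟨v.2, hx⟩)
    · refine le_inf ?_ (centralizer_le (map_subtype_le _))
      intro x hx
      have : x ∈ (ambR V).ker := by rw [ambR_ker]; exact hx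
      rw [mem_comap, this]
      exact one_mem _
  · have hsurj : Function.Surjective ((ambR V).subgroupComap L') := by
      rintro ⟨y, hy⟩
      obtain ⟨g, rfl⟩ := hL' hy
      exact ⟨⟨g, hy⟩, rfl⟩
    have hker : ((ambR V).subgroupComap L').ker = (centralizer (V : Set G)).subgroupOf (L'.comap (ambR V)) := by
      ext x
      have hk : ∀ g : G, g ∈ centralizer (V : Set G) ↔ ambR V g = 1 := by
        intro g
        have := ambR_ker V
        rw [← MonoidHom.mem_ker, this]
      rw [MonoidHom.mem_ker, mem_subgroupOf, hk]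
      constructor
      · intro h
        exact congrArg Subtype.val h
      · intro h
        exact Subtype.ext h
    exact ⟨((QuotientGroup.quotientMulEquivOfEq hker.symm).trans
      (QuotientGroup.quotientKerEquivOfSurjective _ hsurj)).trans φ⟩

end Cfsg.Agent.Lib.Helper13
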