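import Cfsg.Agent.Lib.Helper13.Amb2
import Cfsg.Agent.Lib.Helper13.S4Sec

set_option autoImplicit false
open Cfsg

/-! Failure of factorization for `p = 2` gives a section `S₄`; self-centralizing `p'`-cores. -/

namespace Cfsg.Agent.Lib.Helper13

open Subgroup
open scoped commutatorElement

variable {G : Type*} [Group G] {p : ℕ}

theorem centralizer_subgroupOf (W L : Subgroup G) (hWL : W ≤ L) :
    centralizer ((W.subgroupOf L : Subgroup L) : Set L) = (centralizer (W : Set G)).subgroupOf L := by
  ext x
  rw [mem_subgroupOf, mem_centralizer_iff, mem_centralizer_iff]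
  constructor
  · intro h w hw
    exact congrArg Subtype.val (h ⟨w, hWL hw⟩ hw)
  · intro h w hw
    exact Subtype.ext (h w.1 hw)

/-- failure of factorization for `p = 2` -/
theorem involves_S4_of_offender [Finite G] (V : Subgroup G) [V.Normal] (hV : IsElementaryAbelian 2 V)
    (hS1 : centralizer (pPrimeCore 2 (G ⧸ centralizer (V : Set G)) : Set (G ⧸ centralizer (V : Set G)))
      ≤ pPrimeCore 2 (G ⧸ centralizer (V : Set G)))
    {A : Subgroup G} (hbo : IsBestOffenderOn 2 V A) (hA : ¬ A ≤ centralizer (V : Set G)) :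
    Involves (Equiv.Perm (Fin 4)) G := by
  have : Fact (Nat.Prime 2) := ⟨Nat.prime_two⟩
  obtain ⟨-, W, L, hWV, hcard, hLW, hinf, ⟨φ⟩⟩ := exists_SL_section V hV hS1 hbo hA
  have hCL : centralizer (V : Set G) ≤ L := hinf ▸ inf_le_left
  have hWL : W ≤ L := (hWV.trans (IsEA.le_centralizer hV)).trans hCL
  apply Involves.of_subgroup (M := L)
  have hn : (W.subgroupOf L).Normal := normal_subgroupOf_iff_le_normalizer hWL |>.mpr hLW
  apply involves_S4_of_normal (W.subgroupOf L)
  · rw [Nat.card_congr (subgroupOfEquivOfLe hWL).toEquiv, hcard]; norm_num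
  · rw [centralizer_subgroupOf W L hWL, ← inf_subgroupOf_right, inf_comm, hinf]
    change Nat.card (L ⧸ (centralizer (V : Set G)).subgroupOf L) = 6
    rw [Nat.card_congr φ.toEquiv, Cfsg.Agent.Lib.Helper18.card_SL2, ZMod.card]

/-- in a solvable group with `O_p = 1` the `p'`-core contains its centralizer -/
theorem selfcent_of_solvable {X : Type*} [Group X] [Finite X] [Group.IsSolvable X] [Fact p.Prime]
    (h : pCore p X = ⊥) : centralizer (pPrimeCore p X : Set X) ≤ pPrimeCore p X := by
  have hFn : (fittingSubgroup X).Normal := Cfsg.Agent.Lib.Helper22.fittingSubgroup_normal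
  have hFnil : Group.IsNilpotent (fittingSubgroup X) := Cfsg.H9.fitting_isNilpotent
  have h1 := Cfsg.H9.relIndex_pCore_of_nilpotent p (fittingSubgroup X)
  rw [h, relIndex_bot_left] at h1
  have h2 : fittingSubgroup X ≤ pPrimeCore p X :=
    Cfsg.H9.le_pPrimeCore p hFn ((Nat.coprime_comm.mp ((Fact.out : p.Prime).coprime_iff_not_dvd.mpr h1)))
  exact (centralizer_le h2).trans (Cfsg.H1.centralizer_fitting_le.trans h2)

end Cfsg.Agent.Lib.Helper13
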