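import Mathlib

set_option autoImplicit false

/-! The stabilizer of a chain `W ≤ V`: elements normalizing `W` and acting trivially on `V / W`. -/

namespace Cfsg.Agent.Lib.Helper13

variable {G : Type*} [Group G]

open Subgroup
open scoped commutatorElement

/-- elements of `N(W)` with `[V, d] ⊆ W`. -/
def chainStab (V W : Subgroup G) : Subgroup G where
  carrier := {d | d ∈ normalizer (W : Set G) ∧ ∀ v ∈ V, ⁅v, d⁆ ∈ W}
  one_mem' := ⟨one_mem _, fun v _ => by rw [commutatorElement_one_right]; exact W.one_mem⟩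
  mul_mem' := by
    rintro a b ⟨ha, ha'⟩ ⟨hb, hb'⟩
    refine ⟨mul_mem ha hb, fun v hv => ?_⟩
    rw [commutatorElement_mul_right_eq_mul_conj, mul_assoc, mul_assoc, ← mul_assoc a]
    exact W.mul_mem (ha' v hv) ((Subgroup.mem_normalizer_iff.mp ha _).mp (hb' v hv))
  inv_mem' := by
    rintro a ⟨ha, ha'⟩
    refine ⟨inv_mem ha, fun v hv => ?_⟩
    rw [commutatorElement_inv_right, ← commutatorElement_inv]
    have := (Subgroup.mem_normalizer_iff.mp (inv_mem ha) _).mp (W.inv_mem (ha' v hv))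
    rwa [inv_inv] at this

theorem mem_chainStab {V W : Subgroup G} {d : G} :
    d ∈ chainStab V W ↔ d ∈ normalizer (W : Set G) ∧ ∀ v ∈ V, ⁅v, d⁆ ∈ W := Iff.rfl

theorem commutator_chainStab_le (V W : Subgroup G) : ⁅V, chainStab V W⁆ ≤ W := by
  rw [Subgroup.commutator_le]
  intro v hv d hd
  exact hd.2 v hv

/-- elements normalizing `V` and `W` normalize the chain stabilizer. -/
theorem conj_mem_chainStab {V W : Subgroup G} {e d : G} (heV : e ∈ normalizer (V : Set G))
    (heW : e ∈ normalizer (W : Set G)) (hd : d ∈ chainStab V W) : e * d * e⁻¹ ∈ chainStab V W := by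
  refine ⟨mul_mem (mul_mem heW hd.1) (inv_mem heW), fun v hv => ?_⟩
  have hv' : e⁻¹ * v * e⁻¹⁻¹ ∈ V := (Subgroup.mem_normalizer_iff.mp (inv_mem heV) v).mp hv
  have h1 := (Subgroup.mem_normalizer_iff.mp heW _).mp (hd.2 _ hv')
  rw [conjugate_commutatorElement] at h1
  have h2 : e * (e⁻¹ * v * e⁻¹⁻¹) * e⁻¹ = v := by group
  rwa [h2] at h1

end Cfsg.Agent.Lib.Helper13
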