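import Cfsg.Agent.Lib.Helper13.FF2
import Cfsg.Agent.Lib.Helper13.SLRep
import Cfsg.Agent.Lib.Helper13.Chain
import Cfsg.Agent.H1.Class2

set_option autoImplicit false
open Cfsg

/-! Failure of factorization III: `⟨A, A^x⟩ ≅ SL(2, p)` (KS 9.3.4). -/

namespace Cfsg.Agent.Lib.Helper13

open Subgroup
open scoped commutatorElement

variable {G : Type*} [Group G] {p : ℕ}

theorem commutator_sup_right_eq {V X Y : Subgroup G} (hU : ⁅V, X⁆ ⊔ ⁅V, Y⁆ ≤ V) :
    ⁅V, X ⊔ Y⁆ = ⁅V, X⁆ ⊔ ⁅V, Y⁆ := by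
  apply le_antisymm _ (sup_le (commutator_mono le_rfl le_sup_left) (commutator_mono le_rfl le_sup_right))
  have hX : X ≤ chainStab V (⁅V, X⁆ ⊔ ⁅V, Y⁆) := by
    intro x hx
    refine ⟨?_, fun v hv => le_sup_left (a := ⁅V, X⁆) (commutator_mem_commutator hv hx)⟩
    have : X ≤ normalizer ((⁅V, X⁆ ⊔ ⁅V, Y⁆ : Subgroup G) : Set G) := by
      rw [le_normalizer_iff_commutator_le_left]
      exact (commutator_mono hU le_rfl).trans le_sup_left
    exact this hx
  have hY : Y ≤ chainStab V (⁅V, X⁆ ⊔ ⁅V, Y⁆) := by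
    intro x hx
    refine ⟨?_, fun v hv => le_sup_right (a := ⁅V, X⁆) (commutator_mem_commutator hv hx)⟩
    have : Y ≤ normalizer ((⁅V, X⁆ ⊔ ⁅V, Y⁆ : Subgroup G) : Set G) := by
      rw [le_normalizer_iff_commutator_le_left]
      exact (commutator_mono hU le_rfl).trans le_sup_right
    exact this hx
  exact (commutator_mono le_rfl (sup_le hX hY)).trans (commutator_chainStab_le _ _)

/-- `N A / N` is abelian for abelian `A` normalizing `N`. -/
theorem commutator_sup_le_of_comm {N A : Subgroup G} (hAN : A ≤ normalizer (N : Set G))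
    (hA : ∀ a ∈ A, ∀ c ∈ A, a * c = c * a) : ⁅A ⊔ N, A ⊔ N⁆ ≤ N := by
  rw [commutator_le]
  intro g hg g' hg'
  obtain ⟨a, ha, n, hn, rfl⟩ := mem_sup_of_le_normalizer hAN hg
  obtain ⟨a', ha', n', hn', rfl⟩ := mem_sup_of_le_normalizer hAN hg'
  have h1 := hA a ha a' ha'
  have c1 : a * n * a⁻¹ ∈ N := conj_mem_of_mem_normalizer (hAN ha) hn
  have c2 : a * a' * n' * (a * a')⁻¹ ∈ N := conj_mem_of_mem_normalizer (hAN (mul_mem ha ha')) hn'
  have c3 : a' * a * n⁻¹ * (a' * a)⁻¹ ∈ N := conj_mem_of_mem_normalizer (hAN (mul_mem ha' ha)) (inv_mem hn)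
  have c4 : a' * n'⁻¹ * a'⁻¹ ∈ N := conj_mem_of_mem_normalizer (hAN ha') (inv_mem hn')
  have h2 : ⁅a * n, a' * n'⁆ = (a * n * a⁻¹) * (a * a' * n' * (a * a')⁻¹) * (a' * a * n⁻¹ * (a' * a)⁻¹) * (a' * n'⁻¹ * a'⁻¹) := by
    rw [commutatorElement_def]
    calc a * n * (a' * n') * (a * n)⁻¹ * (a' * n')⁻¹
        = a * n * a' * n' * n⁻¹ * a⁻¹ * n'⁻¹ * a'⁻¹ := by group
      _ = (a * n * a⁻¹) * (a * a') * n' * n⁻¹ * (a' * a)⁻¹ * (a' * n'⁻¹ * a'⁻¹) := by group
      _ = (a * n * a⁻¹) * (a * a') * n' * ((a * a')⁻¹ * (a' * a)) * n⁻¹ * (a' * a)⁻¹ * (a' * n'⁻¹ * a'⁻¹) := by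
        rw [h1]; group
      _ = _ := by group
  rw [h2]
  exact mul_mem (mul_mem (mul_mem c1 c2) c3) c4

theorem eq_one_of_pow_of_coprime [Finite G] {Q : Subgroup G} (hQ : (Nat.card Q).Coprime p) {c : G} (hc : c ∈ Q)
    (hcp : c ^ p = 1) : c = 1 := by
  have h1 : orderOf c ∣ p := orderOf_dvd_of_pow_eq_one hcp
  have h2 : orderOf c ∣ Nat.card Q := by
    have := orderOf_dvd_natCard (⟨c, hc⟩ : Q)
    rwa [Subgroup.orderOf_mk] at this
  exact orderOf_eq_one_iff.mp (Nat.eq_one_of_dvd_coprimes hQ h2 h1)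

/-- data for KS 9.3.4 -/
structure SLSetup (p : ℕ) (V H A : Subgroup G) (x : G) : Prop where
  h : FFSetup p V H
  hAH : A ≤ H
  hbo : IsBestOffenderOn p V A
  hcard : Nat.card A = p
  hx : x ∈ Qc p H
  hxA : x ∉ centralizer (A : Set G)

namespace SLSetup

variable {V H A : Subgroup G} {x : G}

theorem hAE (s : SLSetup p V H A x) : IsElementaryAbelian p A := s.h.isEA_of_offender s.hAH s.hbo

theorem hxH (s : SLSetup p V H A x) : x ∈ H := Qc_le H s.hx

theorem conj_le (s : SLSetup p V H A x) : A.map (MulAut.conj x).toMonoidHom ≤ H := by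
  rintro _ ⟨a, ha, rfl⟩
  exact mul_mem (mul_mem s.hxH (s.hAH ha)) (inv_mem s.hxH)

theorem card_conj (s : SLSetup p V H A x) : Nat.card (A.map (MulAut.conj x).toMonoidHom) = p := by
  rw [card_map_of_injective (MulAut.conj x).injective, s.hcard]

theorem inf_Qc [Finite G] [Fact p.Prime] (s : SLSetup p V H A x) : A ⊓ Qc p H = ⊥ := by
  rw [eq_bot_iff]
  intro c hc
  exact eq_one_of_pow_of_coprime (Qc_coprime H) hc.2 (s.hAE.2 c hc.1)

theorem ne_conj [Finite G] [Fact p.Prime] (s : SLSetup p V H A x) : A ≠ A.map (MulAut.conj x).toMonoidHom := by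
  intro he
  apply s.hxA
  rw [mem_centralizer_iff]
  intro a ha
  have h1 : ⁅x, a⁆ ∈ A ⊓ Qc p H := by
    refine mem_inf.mpr ⟨?_, ?_⟩
    · have h2 : x * a * x⁻¹ ∈ A := by
        rw [he]
        exact ⟨a, ha, rfl⟩
      exact A.mul_mem h2 (A.inv_mem ha)
    · have h2 : ⁅x, a⁆ = x * (a * x⁻¹ * a⁻¹) := by
        rw [commutatorElement_def]; group
      rw [h2]
      exact mul_mem s.hx (conj_mem_of_mem_normalizer (le_normalizer_Qc H (s.hAH ha)) (inv_mem s.hx))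
  rw [s.inf_Qc, mem_bot] at h1
  exact (commutatorElement_eq_one_iff_mul_comm.mp h1).symm

theorem inf_conj [Finite G] [Fact p.Prime] (s : SLSetup p V H A x) :
    A ⊓ A.map (MulAut.conj x).toMonoidHom = ⊥ := by
  rcases eq_bot_or_eq_of_card_prime s.hcard (inf_le_left : A ⊓ A.map (MulAut.conj x).toMonoidHom ≤ A) with h1 | h1
  · exact h1
  · exfalso
    apply s.ne_conj
    exact eq_of_le_of_card_ge (inf_eq_left.mp h1) (by rw [s.card_conj, s.hcard])

theorem map_V (s : SLSetup p V H A x) : V.map (MulAut.conj x).toMonoidHom = V :=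
  mem_normalizer_iff_map_conj_eq.mp (s.h.hHV s.hxH)

theorem comm_conj (s : SLSetup p V H A x) :
    ⁅V, A.map (MulAut.conj x).toMonoidHom⁆ = (⁅V, A⁆).map (MulAut.conj x).toMonoidHom := by
  rw [map_commutator, s.map_V]

theorem card_comm [Finite G] [Fact p.Prime] (s : SLSetup p V H A x) : Nat.card ↥⁅V, A⁆ = p :=
  (s.h.of_card_eq s.hAH s.hbo s.hcard).1

theorem card_comm_conj [Finite G] [Fact p.Prime] (s : SLSetup p V H A x) :
    Nat.card ↥⁅V, A.map (MulAut.conj x).toMonoidHom⁆ = p := by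
  rw [s.comm_conj, card_map_of_injective (MulAut.conj x).injective, s.card_comm]

theorem comm_le (s : SLSetup p V H A x) {B : Subgroup G} (hB : B ≤ H) : ⁅V, B⁆ ≤ V :=
  le_normalizer_iff_commutator_le_left.mp (hB.trans s.h.hHV)

/-- a subgroup of order `p` of `H` centralizes its commutator of order `p` -/
theorem comm_comm_eq_bot [Finite G] [Fact p.Prime] (s : SLSetup p V H A x) {B : Subgroup G} (hB : B ≤ H)
    (hBp : ∀ b ∈ B, b ^ p = 1) (hc : Nat.card ↥⁅V, B⁆ = p) : ⁅⁅V, B⁆, B⁆ = ⊥ := by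
  have h1 : ⁅⁅V, B⁆, B⁆ ≤ ⁅V, B⁆ := le_normalizer_iff_commutator_le_left.mp (normalizer_commutator_ge_right V B)
  rcases eq_bot_or_eq_of_card_prime hc h1 with h2 | h2
  · exact h2
  · exfalso
    have h3 : ⁅V, B⁆ = ⊥ := by
      apply eq_bot_of_le_commutator (IsEA.isPGroup s.h.hV) (hB.trans s.h.hHV) _ (s.comm_le hB) h2.ge
      intro b hb
      exact ⟨1, by rw [pow_one, hBp b hb]; exact one_mem _⟩
    rw [h3, card_bot] at hc
    exact (Fact.out : p.Prime).one_lt.ne hc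

theorem sup_le (s : SLSetup p V H A x) : A ⊔ A.map (MulAut.conj x).toMonoidHom ≤ H :=
  _root_.sup_le s.hAH s.conj_le

theorem W_eq (s : SLSetup p V H A x) : ⁅V, A ⊔ A.map (MulAut.conj x).toMonoidHom⁆ =
    ⁅V, A⁆ ⊔ ⁅V, A.map (MulAut.conj x).toMonoidHom⁆ :=
  commutator_sup_right_eq (_root_.sup_le (s.comm_le s.hAH) (s.comm_le s.conj_le))

theorem sup_le_sup_Qc (s : SLSetup p V H A x) : A ⊔ A.map (MulAut.conj x).toMonoidHom ≤ A ⊔ Qc p H := by
  refine _root_.sup_le le_sup_left ?_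
  rintro _ ⟨a, ha, rfl⟩
  have h2 : (MulAut.conj x).toMonoidHom a = x * (a * x⁻¹ * a⁻¹) * a := by
    simp
    group
  rw [h2]
  refine mul_mem (le_sup_right (a := A) ?_) (le_sup_left (a := A) ha)
  exact mul_mem s.hx (conj_mem_of_mem_normalizer (le_normalizer_Qc H (s.hAH ha)) (inv_mem s.hx))

theorem card_dvd_of_isPGroup [Finite G] [Fact p.Prime] (s : SLSetup p V H A x) {P : Subgroup G}
    (hP : IsPGroup p P) (hle : P ≤ A ⊔ Qc p H) : Nat.card P ∣ p := by
  have h1 := card_sup_mul_card_inf A (Qc p H) (s.hAH.trans (le_normalizer_Qc H))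
  rw [s.inf_Qc, card_bot, mul_one, s.hcard] at h1
  have h2 := card_dvd_of_le hle
  rw [h1, mul_comm] at h2
  obtain ⟨k, hk⟩ := IsPGroup.iff_card.mp hP
  apply Nat.Coprime.dvd_of_dvd_mul_left _ h2
  rw [hk]
  exact (Nat.Coprime.pow_right k (Qc_coprime H)).symm

/-- faithfulness on `W` -/
theorem inf_centralizer_W [Finite G] [Fact p.Prime] (s : SLSetup p V H A x) :
    (A ⊔ A.map (MulAut.conj x).toMonoidHom) ⊓
      centralizer ((⁅V, A ⊔ A.map (MulAut.conj x).toMonoidHom⁆ : Subgroup G) : Set G) = ⊥ := by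
  set A' := A.map (MulAut.conj x).toMonoidHom with hA'
  set L := A ⊔ A' with hL
  set W := ⁅V, L⁆ with hW
  set K := L ⊓ centralizer (W : Set G) with hK
  have hLH : L ≤ H := s.sup_le
  have hWV : W ≤ V := s.comm_le hLH
  have hKp : ∀ k ∈ K, k ^ p = 1 := by
    intro k hk
    have h1 : k ^ p ∈ H ⊓ centralizer (V : Set G) := by
      refine mem_inf.mpr ⟨pow_mem (hLH hk.1) p, ?_⟩
      rw [mem_centralizer_iff]
      intro v hv
      have hw : ⁅k, v⁆ ∈ W := by
        rw [← commutatorElement_inv]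
        exact inv_mem (commutator_mem_commutator hv hk.1)
      have c1 : Commute ⁅k, v⁆ v := IsEA.comm s.h.hV (hWV hw) hv
      have c2 : Commute ⁅k, v⁆ k := mem_centralizer_iff.mp hk.2 _ hw
      have h2 := Cfsg.H1.commutator_pow_left_of_central c1 c2 p
      rw [s.h.hV.2 _ (hWV hw)] at h2
      exact (commutatorElement_eq_one_iff_mul_comm.mp h2).symm
    rwa [s.h.hf, mem_bot] at h1
  have hKpg : IsPGroup p K := fun k => ⟨1, Subtype.ext (by rw [pow_one]; exact hKp k.1 k.2)⟩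
  have hLK : L ≤ normalizer (K : Set G) := by
    have h1 : L ≤ normalizer (W : Set G) := normalizer_commutator_ge_right V L
    exact (le_inf le_normalizer (h1.trans (normalizer_le_normalizer_centralizer W))).trans
      inf_normalizer_le_normalizer_inf
  have key : ∀ B : Subgroup G, B ≤ L → IsPGroup p B → Nat.card B = p → K ≤ B := by
    intro B hBL hBp hBc
    have h1 : IsPGroup p (B ⊔ K : Subgroup G) := hBp.to_sup_of_normal_right' hKpg (hBL.trans hLK)
    have h2 := s.card_dvd_of_isPGroup h1 ((_root_.sup_le hBL inf_le_left).trans s.sup_le_sup_Qc)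
    have h3 : B = B ⊔ K := eq_of_le_of_card_ge le_sup_left (by rw [hBc]; exact Nat.le_of_dvd (Fact.out : p.Prime).pos h2)
    rw [h3]
    exact le_sup_right
  have h1 := key A le_sup_left (IsEA.isPGroup s.hAE) s.hcard
  have h2 := key A' le_sup_right (IsEA.isPGroup (IsEA.map _ s.hAE)) s.card_conj
  exact le_bot_iff.mp (s.inf_conj ▸ le_inf h1 h2)

theorem card_W [Finite G] [Fact p.Prime] (s : SLSetup p V H A x) :
    Nat.card ↥⁅V, A ⊔ A.map (MulAut.conj x).toMonoidHom⁆ = p ^ 2 := by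
  have hf := s.inf_centralizer_W
  rw [s.W_eq] at hf ⊢
  set A' := A.map (MulAut.conj x).toMonoidHom with hA'
  have c1 := s.comm_comm_eq_bot s.hAH s.hAE.2 s.card_comm
  have c2 := s.comm_comm_eq_bot s.conj_le (IsEA.map _ s.hAE).2 s.card_comm_conj
  have hne : ⁅V, A⁆ ⊓ ⁅V, A'⁆ = ⊥ := by
    rcases eq_bot_or_eq_of_card_prime s.card_comm (inf_le_left : ⁅V, A⁆ ⊓ ⁅V, A'⁆ ≤ ⁅V, A⁆) with h1 | h1
    · exact h1
    · exfalso
      have h2 : ⁅V, A⁆ = ⁅V, A'⁆ :=
        eq_of_le_of_card_ge (inf_eq_left.mp h1) (by rw [s.card_comm_conj, s.card_comm])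
      rw [← h2, sup_idem] at hf
      rw [← h2] at c2
      have h3 : A ⊔ A' ≤ centralizer ((⁅V, A⁆ : Subgroup G) : Set G) :=
        _root_.sup_le (le_centralizer_iff.mp (commutator_eq_bot_iff_le_centralizer.mp c1))
          (le_centralizer_iff.mp (commutator_eq_bot_iff_le_centralizer.mp c2))
      have h4 : A ≤ ⊥ := hf ▸ le_inf le_sup_left (le_sup_left.trans h3)
      have h5 := s.hcard
      rw [le_bot_iff.mp h4, card_bot] at h5
      exact (Fact.out : p.Prime).one_lt.ne h5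
  have hn : ⁅V, A⁆ ≤ normalizer ((⁅V, A'⁆ : Subgroup G) : Set G) := by
    refine le_trans ?_ (centralizer_le_normalizer _)
    exact ((s.comm_le s.hAH).trans (IsEA.le_centralizer s.h.hV)).trans (centralizer_le (s.comm_le s.conj_le))
  have h1 := card_sup_mul_card_inf _ _ hn
  rw [hne, card_bot, mul_one, s.card_comm, s.card_comm_conj] at h1
  rw [h1, pow_two]

theorem nonempty_equiv [Finite G] [Fact p.Prime] (s : SLSetup p V H A x) :
    Nonempty (↥(A ⊔ A.map (MulAut.conj x).toMonoidHom) ≃* Matrix.SpecialLinearGroup (Fin 2) (ZMod p)) :=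
  nonempty_mulEquiv_SL2 (IsEA.mono (s.comm_le s.sup_le) s.h.hV) s.card_W (normalizer_commutator_ge_right V _)
    s.inf_centralizer_W s.hcard s.card_conj s.ne_conj le_sup_left le_sup_right le_rfl

end SLSetup

theorem TS_pow_char (p : ℕ) [Fact p.Prime] (a : ZMod p) :
    (Cfsg.Agent.Lib.Helper18.TS a : Matrix.SpecialLinearGroup (Fin 2) (ZMod p)) ^ p = 1 := by
  have h1 : (Cfsg.Agent.Lib.Helper18.TS a : Matrix.SpecialLinearGroup (Fin 2) (ZMod p))
      = Cfsg.Agent.Lib.Helper18.TShom (Multiplicative.ofAdd a) := rfl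
  rw [h1, ← map_pow, ← ofAdd_nsmul]
  have h2 : p • a = 0 := by
    rw [nsmul_eq_mul, CharP.cast_eq_zero, zero_mul]
  rw [h2, ofAdd_zero, map_one]

theorem exists_comm_SL2 (p : ℕ) [Fact p.Prime] (h2 : p ≠ 2) (h3 : p ≠ 3) :
    ∃ t u : Matrix.SpecialLinearGroup (Fin 2) (ZMod p), ⁅t, u⁆ ≠ 1 ∧ ⁅t, u⁆ ^ p = 1 := by
  have hp := (Fact.out : p.Prime)
  have h20 : (2 : ZMod p) ≠ 0 := by
    intro h
    have h' : ((2 : ℕ) : ZMod p) = 0 := by exact_mod_cast h
    rw [ZMod.natCast_eq_zero_iff] at h'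
    exact h2 ((Nat.prime_dvd_prime_iff_eq hp Nat.prime_two).mp h')
  have h30 : (3 : ZMod p) ≠ 0 := by
    intro h
    have h' : ((3 : ℕ) : ZMod p) = 0 := by exact_mod_cast h
    rw [ZMod.natCast_eq_zero_iff] at h'
    exact h3 ((Nat.prime_dvd_prime_iff_eq hp Nat.prime_three).mp h')
  let t : Matrix.SpecialLinearGroup (Fin 2) (ZMod p) :=
    ⟨!![2, 0; 0, 2⁻¹], by rw [Matrix.det_fin_two_of]; field_simp; ring⟩
  have ht : ⁅t, Cfsg.Agent.Lib.Helper18.TS (1 : ZMod p)⁆ = Cfsg.Agent.Lib.Helper18.TS 3 := by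
    have h10 : t 1 0 = 0 := rfl
    rw [commutatorElement_def, Cfsg.Agent.Lib.Helper18.conj_TS_of_upper h10, mul_inv_eq_iff_eq_mul]
    have e1 : t 0 0 = 2 := rfl
    have e2 : t 1 1 = 2⁻¹ := rfl
    rw [e1, e2]
    have e3 : ∀ a b : ZMod p, Cfsg.Agent.Lib.Helper18.TS a * Cfsg.Agent.Lib.Helper18.TS b
        = Cfsg.Agent.Lib.Helper18.TS (a + b) := fun a b =>
      (Cfsg.Agent.Lib.Helper18.TShom.map_mul (Multiplicative.ofAdd a) (Multiplicative.ofAdd b)).symm
    rw [e3]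
    congr 1
    field_simp
    ring
  refine ⟨t, Cfsg.Agent.Lib.Helper18.TS 1, ?_, ?_⟩
  · rw [ht]
    intro h
    have h0 : (Cfsg.Agent.Lib.Helper18.TS (0 : ZMod p)) = 1 :=
      Cfsg.Agent.Lib.Helper18.TShom.map_one
    rw [← h0] at h
    exact h30 (Cfsg.Agent.Lib.Helper18.TS_injective h)
  · rw [ht]
    exact TS_pow_char p 3

namespace SLSetup

variable {V H A : Subgroup G} {x : G}

theorem two_or_three [Finite G] [Fact p.Prime] (s : SLSetup p V H A x) : p = 2 ∨ p = 3 := by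
  by_contra hcon
  rw [not_or] at hcon
  obtain ⟨φ⟩ := s.nonempty_equiv
  obtain ⟨t, u, hne, hpow⟩ := exists_comm_SL2 p hcon.1 hcon.2
  apply hne
  have h1 : ⁅t, u⁆ = φ ⁅φ.symm t, φ.symm u⁆ := by
    rw [map_commutatorElement, φ.apply_symm_apply, φ.apply_symm_apply]
  have h2 : ((⁅φ.symm t, φ.symm u⁆ : ↥(A ⊔ A.map (MulAut.conj x).toMonoidHom)) : G) ∈ Qc p H := by
    have h3 : ((⁅φ.symm t, φ.symm u⁆ : ↥(A ⊔ A.map (MulAut.conj x).toMonoidHom)) : G)
        = ⁅((φ.symm t : ↥(A ⊔ A.map (MulAut.conj x).toMonoidHom)) : G), ((φ.symm u : ↥(A ⊔ A.map (MulAut.conj x).toMonoidHom)) : G)⁆ := rfl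
    rw [h3]
    exact commutator_sup_le_of_comm ((s.hAH).trans (le_normalizer_Qc H))
      (fun a ha c hc => IsEA.comm s.hAE ha hc)
      (commutator_mem_commutator (s.sup_le_sup_Qc (φ.symm t).2) (s.sup_le_sup_Qc (φ.symm u).2))
  have h4 : ((⁅φ.symm t, φ.symm u⁆ : ↥(A ⊔ A.map (MulAut.conj x).toMonoidHom)) : G) ^ p = 1 := by
    have h5 : (⁅φ.symm t, φ.symm u⁆ : ↥(A ⊔ A.map (MulAut.conj x).toMonoidHom)) ^ p = 1 := by
      apply φ.injective
      rw [map_pow, ← h1, hpow, map_one]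
    exact_mod_cast congrArg Subtype.val h5
  have h6 := eq_one_of_pow_of_coprime (Qc_coprime H) h2 h4
  rw [h1, Subtype.ext (a1 := ⁅φ.symm t, φ.symm u⁆) (a2 := 1) h6, map_one]

end SLSetup

end Cfsg.Agent.Lib.Helper13
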