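import Cfsg.Agent.Lib.Helper13.FF3
import Cfsg.Agent.H1.CoprimeSylow
import Cfsg.Agent.H1.SylowSystem

set_option autoImplicit false
open Cfsg

/-! Failure of factorization IV: `[O_{p'}(H), A]` (KS 9.3.5). -/

namespace Cfsg.Agent.Lib.Helper13

open Subgroup
open scoped commutatorElement

variable {G : Type*} [Group G] {p : ℕ}

/-- If among the `A`-invariant `r`-subgroups of `Q` only those for `r = r₀` can be moved by `A`, then
`[Q, A]` lies in an `A`-invariant Sylow `r₀`-subgroup. -/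
theorem isPGroup_commutator_of_coprime [Finite G] {Q A : Subgroup G} (hAQ : A ≤ normalizer (Q : Set G))
    (hcop : (Nat.card A).Coprime (Nat.card Q)) (hsolv : Group.IsSolvable A) (r₀ : ℕ) [Fact r₀.Prime]
    (hkey : ∀ (r : ℕ) (R : Subgroup G), r.Prime → R ≤ Q → IsPGroup r R → A ≤ normalizer (R : Set G) →
      ¬ R ≤ centralizer (A : Set G) → r = r₀) : IsPGroup r₀ ↥⁅Q, A⁆ := by
  obtain ⟨P₀, hP₀⟩ := (Cfsg.H1.coprime_sylow_aux A Q hAQ hcop (Or.inl hsolv) r₀).1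
  have hrel : ∀ (r : ℕ) [Fact r.Prime] (P : Sylow r Q), ¬ r ∣ ((P : Subgroup Q).map Q.subtype).relIndex Q := by
    intro r _ P
    have h1 : ((P : Subgroup Q).map Q.subtype).subgroupOf Q = (P : Subgroup Q) :=
      comap_map_eq_self_of_injective Q.subtype_injective _
    rw [relIndex, h1]
    exact P.not_dvd_index
  have hco : (((P₀ : Subgroup Q).map Q.subtype).relIndex Q).Coprime ((Q ⊓ centralizer (A : Set G)).relIndex Q) := by
    apply Nat.coprime_of_dvd
    intro r hr h1 h2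
    haveI : Fact r.Prime := ⟨hr⟩
    have hne : r ≠ r₀ := by
      rintro rfl
      exact hrel r P₀ h1
    obtain ⟨P, hP⟩ := (Cfsg.H1.coprime_sylow_aux A Q hAQ hcop (Or.inl hsolv) r).1
    have h3 : (P : Subgroup Q).map Q.subtype ≤ centralizer (A : Set G) := by
      by_contra hcon
      exact hne (hkey r _ hr (map_subtype_le _) (P.2.map _) hP hcon)
    exact hrel r P (h2.trans (relIndex_dvd_of_le_left Q (le_inf (map_subtype_le _) h3)))
  have hmul := Cfsg.H1.mul_eq_of_coprime_relIndex (map_subtype_le _) inf_le_left hco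
  have hle : ⁅Q, A⁆ ≤ (P₀ : Subgroup Q).map Q.subtype := by
    rw [commutator_le]
    intro q hq a ha
    have hq' : q ∈ ((Q : Subgroup G) : Set G) := hq
    rw [← hmul] at hq'
    obtain ⟨r, hr, c, hc, rfl⟩ := hq'
    have hca : a * c = c * a := mem_centralizer_iff.mp hc.2 a ha
    have h1 : ⁅r * c, a⁆ = r * (a * r⁻¹ * a⁻¹) := by
      rw [commutatorElement_def]
      have : r * c * a * (r * c)⁻¹ * a⁻¹ = r * (c * a) * c⁻¹ * r⁻¹ * a⁻¹ := by group
      rw [this, ← hca]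
      group
    rw [h1]
    exact Subgroup.mul_mem _ hr (conj_mem_of_mem_normalizer (hP₀ ha) (Subgroup.inv_mem _ hr))
  exact (P₀.2.map Q.subtype).to_le hle

theorem exists_noncomm_SL23 :
    ∃ t u t' u' : Matrix.SpecialLinearGroup (Fin 2) (ZMod 3), ⁅t, u⁆ * ⁅t', u'⁆ ≠ ⁅t', u'⁆ * ⁅t, u⁆ := by
  refine ⟨⟨!![1,1;0,1], by decide⟩, ⟨!![1,0;1,1], by decide⟩, ⟨!![1,1;0,1], by decide⟩,
    ⟨!![1,0;2,1], by decide⟩, ?_⟩
  decide

/-- minimal offender data -/
structure MinOff (p : ℕ) (V H A : Subgroup G) : Prop where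
  h : FFSetup p V H
  hAH : A ≤ H
  hbo : IsBestOffenderOn p V A
  hcard : Nat.card A = p

namespace MinOff

variable {V H A : Subgroup G}

theorem setup (m : MinOff p V H A) {x : G} (hx : x ∈ Qc p H) (hxA : x ∉ centralizer (A : Set G)) :
    SLSetup p V H A x := ⟨m.h, m.hAH, m.hbo, m.hcard, hx, hxA⟩

theorem hAE (m : MinOff p V H A) : IsElementaryAbelian p A := m.h.isEA_of_offender m.hAH m.hbo

theorem exists_not_mem [Finite G] [Fact p.Prime] (m : MinOff p V H A) :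
    ∃ x ∈ Qc p H, x ∉ centralizer (A : Set G) := by
  by_contra hcon
  push Not at hcon
  have h1 : A ≤ H ⊓ centralizer (Qc p H : Set G) :=
    le_inf m.hAH (le_centralizer_iff.mp hcon)
  have h2 : A ≤ Qc p H := h1.trans m.h.cent_Qc_le
  have h3 : Nat.card A ∣ Nat.card (Qc p H) := card_dvd_of_le h2
  rw [m.hcard] at h3
  have h4 := Nat.Coprime.eq_one_of_dvd (Qc_coprime (p := p) H).symm h3
  exact (Fact.out : p.Prime).one_lt.ne' h4

theorem two_or_three [Finite G] [Fact p.Prime] (m : MinOff p V H A) : p = 2 ∨ p = 3 := by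
  obtain ⟨x, hx, hxA⟩ := m.exists_not_mem
  exact (m.setup hx hxA).two_or_three

theorem conj_le_sup {R : Subgroup G} (hAR : A ≤ normalizer (R : Set G)) {x : G} (hx : x ∈ R) :
    A ⊔ A.map (MulAut.conj x).toMonoidHom ≤ A ⊔ R := by
  refine _root_.sup_le le_sup_left ?_
  rintro _ ⟨a, ha, rfl⟩
  have h2 : (MulAut.conj x).toMonoidHom a = x * (a * x⁻¹ * a⁻¹) * a := by
    simp
    group
  rw [h2]
  exact Subgroup.mul_mem _ (mem_sup_right (Subgroup.mul_mem _ hx
    (conj_mem_of_mem_normalizer (hAR ha) (Subgroup.inv_mem _ hx)))) (mem_sup_left ha)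

theorem card_L [Finite G] [Fact p.Prime] {x : G} (s : SLSetup p V H A x) :
    Nat.card ↥(A ⊔ A.map (MulAut.conj x).toMonoidHom) = p * ((p + 1) * (p - 1)) := by
  obtain ⟨φ⟩ := s.nonempty_equiv
  rw [Nat.card_congr φ.toEquiv, Cfsg.Agent.Lib.Helper18.card_SL2, ZMod.card]

theorem prime_eq [Finite G] [Fact p.Prime] (m : MinOff p V H A) {r : ℕ} (hr : r.Prime) {R : Subgroup G}
    (hRQ : R ≤ Qc p H) (hR : IsPGroup r R) (hAR : A ≤ normalizer (R : Set G))
    (hne : ¬ R ≤ centralizer (A : Set G)) : (p = 2 ∧ r = 3) ∨ (p = 3 ∧ r = 2) := by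
  obtain ⟨x, hxR, hxA⟩ := SetLike.not_le_iff_exists.mp hne
  have s := m.setup (hRQ hxR) hxA
  have h1 := card_dvd_of_le (conj_le_sup hAR hxR)
  have h2 := card_sup_mul_card_inf A R hAR
  have h3 : A ⊓ R = ⊥ := le_bot_iff.mp (s.inf_Qc ▸ inf_le_inf_left A hRQ)
  rw [h3, card_bot, mul_one, m.hcard] at h2
  rw [h2, card_L s] at h1
  have h4 : (p + 1) * (p - 1) ∣ Nat.card R :=
    Nat.dvd_of_mul_dvd_mul_left (Fact.out : p.Prime).pos h1
  haveI : Fact r.Prime := ⟨hr⟩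
  obtain ⟨k, hk⟩ := hR.exists_card_eq
  rw [hk] at h4
  rcases s.two_or_three with rfl | rfl
  · left
    refine ⟨rfl, ?_⟩
    have h5 : 3 ∣ r ^ k := h4
    exact ((Nat.prime_dvd_prime_iff_eq Nat.prime_three hr).mp (Nat.prime_three.dvd_of_dvd_pow h5)).symm
  · right
    refine ⟨rfl, ?_⟩
    have h5 : 2 ∣ r ^ k := Dvd.dvd.trans (by norm_num) h4
    exact ((Nat.prime_dvd_prime_iff_eq Nat.prime_two hr).mp (Nat.prime_two.dvd_of_dvd_pow h5)).symm

theorem isSolvable (m : MinOff p V H A) : Group.IsSolvable A := by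
  exact Group.isSolvable_of_comm (fun a b => m.hAE.1.is_comm.comm a b)

theorem coprime [Finite G] (m : MinOff p V H A) : (Nat.card A).Coprime (Nat.card (Qc p H)) := by
  rw [m.hcard]
  exact (Qc_coprime H).symm

theorem isPGroup_three [Finite G] [Fact (2 : ℕ).Prime] (m : MinOff 2 V H A) : IsPGroup 3 ↥⁅Qc 2 H, A⁆ := by
  haveI : Fact (3 : ℕ).Prime := ⟨Nat.prime_three⟩
  apply isPGroup_commutator_of_coprime (m.hAH.trans (le_normalizer_Qc H)) m.coprime m.isSolvable 3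
  intro r R hr hRQ hR hAR hne
  rcases m.prime_eq hr hRQ hR hAR hne with h | h
  · exact h.2
  · exact absurd h.1 (by norm_num)

theorem isPGroup_two [Finite G] [Fact (3 : ℕ).Prime] (m : MinOff 3 V H A) : IsPGroup 2 ↥⁅Qc 3 H, A⁆ := by
  haveI : Fact (2 : ℕ).Prime := ⟨Nat.prime_two⟩
  apply isPGroup_commutator_of_coprime (m.hAH.trans (le_normalizer_Qc H)) m.coprime m.isSolvable 2
  intro r R hr hRQ hR hAR hne
  rcases m.prime_eq hr hRQ hR hAR hne with h | h
  · exact absurd h.1 (by norm_num)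
  · exact h.2

/-- `⟨A, A^x⟩ ≤ A [Q, A]` -/
theorem L_le (m : MinOff p V H A) {x : G} (hx : x ∈ Qc p H) :
    A ⊔ A.map (MulAut.conj x).toMonoidHom ≤ A ⊔ ⁅Qc p H, A⁆ := by
  refine _root_.sup_le le_sup_left ?_
  rintro _ ⟨a, ha, rfl⟩
  have h2 : (MulAut.conj x).toMonoidHom a = ⁅x, a⁆ * a := by
    simp [commutatorElement_def]
  rw [h2]
  exact Subgroup.mul_mem _ (mem_sup_right (commutator_mem_commutator hx ha)) (mem_sup_left ha)

theorem not_comm [Finite G] [Fact (3 : ℕ).Prime] (m : MinOff 3 V H A) :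
    ¬ IsMulCommutative ↥⁅Qc 3 H, A⁆ := by
  intro hcomm
  obtain ⟨x, hx, hxA⟩ := m.exists_not_mem
  have s := m.setup hx hxA
  obtain ⟨φ⟩ := s.nonempty_equiv
  obtain ⟨t, u, t', u', hne⟩ := exists_noncomm_SL23
  apply hne
  have hmem : ∀ a b : ↥(A ⊔ A.map (MulAut.conj x).toMonoidHom), ((⁅a, b⁆ : ↥(A ⊔ A.map (MulAut.conj x).toMonoidHom)) : G) ∈ ⁅Qc 3 H, A⁆ := by
    intro a b
    have h3 : ((⁅a, b⁆ : ↥(A ⊔ A.map (MulAut.conj x).toMonoidHom)) : G) = ⁅(a : G), (b : G)⁆ := rfl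
    rw [h3]
    exact commutator_sup_le_of_comm (normalizer_commutator_ge_right (Qc 3 H) A)
      (fun a ha c hc => IsEA.comm m.hAE ha hc)
      (commutator_mem_commutator (m.L_le hx a.2) (m.L_le hx b.2))
  have h1 : ∀ a b : Matrix.SpecialLinearGroup (Fin 2) (ZMod 3), ⁅a, b⁆ = φ ⁅φ.symm a, φ.symm b⁆ := by
    intro a b
    rw [map_commutatorElement, φ.apply_symm_apply, φ.apply_symm_apply]
  rw [h1 t u, h1 t' u', ← map_mul, ← map_mul]
  congr 1
  apply Subtype.ext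
  have h4 := hcomm.is_comm.comm ⟨_, hmem (φ.symm t) (φ.symm u)⟩ ⟨_, hmem (φ.symm t') (φ.symm u')⟩
  exact congrArg (fun z : ↥⁅Qc 3 H, A⁆ => (z : G)) h4

end MinOff

end Cfsg.Agent.Lib.Helper13
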