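import Mathlib
import Cfsg.Prelude.Def_PLocal
import Cfsg.Agent.Lib.Helper13.CardSup

set_option autoImplicit false

/-! Gillam's replacement step for metabelian groups. -/

namespace Cfsg.Agent.Lib.Helper13

open Subgroup
open scoped commutatorElement Pointwise

variable {G : Type*} [Group G]

theorem card_conj_smul' (x : G) (H : Subgroup G) :
    Nat.card (MulAut.conj x • H : Subgroup G) = Nat.card H :=
  (Nat.card_congr (Subgroup.equivSMul (MulAut.conj x) H).toEquiv).symm

theorem gillam_commute (hmeta : IsMulCommutative ↥(commutator G)) {B : Subgroup G}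
    (hB : IsMulCommutative B) {x a b : G} (ha : a ∈ B) (hb : b ∈ B) (ha' : x * a * x⁻¹ ∈ B) :
    a * (x * b * x⁻¹) = (x * b * x⁻¹) * a := by
  have hBc : ∀ s ∈ B, ∀ t ∈ B, s * t = t * s := fun s hs t ht => by
    have := hB.is_comm.comm ⟨s, hs⟩ ⟨t, ht⟩
    exact congrArg Subtype.val this
  have hGc : ∀ s ∈ commutator G, ∀ t ∈ commutator G, s * t = t * s := fun s hs t ht => by
    have := hmeta.is_comm.comm ⟨s, hs⟩ ⟨t, ht⟩
    exact congrArg Subtype.val this
  have hcm : ∀ c : G, c⁻¹ * (x * c * x⁻¹) ∈ commutator G := fun c => by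
    have : c⁻¹ * (x * c * x⁻¹) = ⁅c⁻¹, x⁆ := by
      rw [commutatorElement_def]; group
    rw [this]
    exact Subgroup.commutator_mem_commutator (Subgroup.mem_top _) (Subgroup.mem_top _)
  set a' := x * a * x⁻¹ with ha'def
  set b' := x * b * x⁻¹ with hb'def
  have hab' : a' * b' = b' * a' := by
    have := hBc a ha b hb
    rw [ha'def, hb'def]
    calc x * a * x⁻¹ * (x * b * x⁻¹) = x * (a * b) * x⁻¹ := by group
      _ = x * (b * a) * x⁻¹ := by rw [this]
      _ = x * b * x⁻¹ * (x * a * x⁻¹) := by group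
  -- u = a⁻¹ a'
  have hu1 : a⁻¹ * a' ∈ B := B.mul_mem (B.inv_mem ha) ha'
  have hu2 : a⁻¹ * a' ∈ commutator G := hcm a
  have hv : b⁻¹ * b' ∈ commutator G := hcm b
  have h1 : (a⁻¹ * a') * b = b * (a⁻¹ * a') := hBc _ hu1 _ hb
  have h2 : (a⁻¹ * a') * (b⁻¹ * b') = (b⁻¹ * b') * (a⁻¹ * a') := hGc _ hu2 _ hv
  have h3 : (a⁻¹ * a') * b' = b' * (a⁻¹ * a') := by
    calc (a⁻¹ * a') * b' = ((a⁻¹ * a') * b) * (b⁻¹ * b') := by group
      _ = b * ((a⁻¹ * a') * (b⁻¹ * b')) := by rw [h1]; group
      _ = b * ((b⁻¹ * b') * (a⁻¹ * a')) := by rw [h2]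
      _ = b' * (a⁻¹ * a') := by group
  -- a = a' u⁻¹
  have h4 : a⁻¹ * (a' * b') = b' * a⁻¹ * a' := by
    calc a⁻¹ * (a' * b') = (a⁻¹ * a') * b' := by group
      _ = b' * (a⁻¹ * a') := h3
      _ = b' * a⁻¹ * a' := by group
  rw [hab'] at h4
  have h5 : a⁻¹ * b' = b' * a⁻¹ := by
    have : a⁻¹ * b' * a' = b' * a⁻¹ * a' := by rw [← h4]; group
    exact mul_right_cancel this
  calc a * b' = a * (b' * a⁻¹) * a := by group
    _ = a * (a⁻¹ * b') * a := by rw [h5]
    _ = b' * a := by group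

theorem gillam_step [Finite G] (hmeta : IsMulCommutative ↥(commutator G)) {B : Subgroup G}
    (hB : B ∈ Cfsg.maxAbelianSubgroups G) {x : G}
    (hx : ∀ b ∈ B, x * b * x⁻¹ ∈ normalizer (B : Set G)) (hx' : ∃ b ∈ B, x * b * x⁻¹ ∉ B) :
    ∃ B' ∈ Cfsg.maxAbelianSubgroups G, B' ≤ normalClosure (B : Set G) ∧
      Nat.card (B ⊓ commutator G : Subgroup G) < Nat.card (B' ⊓ commutator G : Subgroup G) := by
  obtain ⟨hBab, hBmax⟩ := hB
  have hBc : ∀ s ∈ B, ∀ t ∈ B, s * t = t * s := fun s hs t ht => by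
    have := hBab.is_comm.comm ⟨s, hs⟩ ⟨t, ht⟩
    exact congrArg Subtype.val this
  have hGc : ∀ s ∈ commutator G, ∀ t ∈ commutator G, s * t = t * s := fun s hs t ht => by
    have := hmeta.is_comm.comm ⟨s, hs⟩ ⟨t, ht⟩
    exact congrArg Subtype.val this
  have hcm : ∀ c : G, c⁻¹ * (x * c * x⁻¹) ∈ commutator G := fun c => by
    have : c⁻¹ * (x * c * x⁻¹) = ⁅c⁻¹, x⁆ := by
      rw [commutatorElement_def]; group
    rw [this]
    exact Subgroup.commutator_mem_commutator (Subgroup.mem_top _) (Subgroup.mem_top _)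
  -- the conjugate
  obtain ⟨Bx, hBx⟩ : ∃ Bx : Subgroup G, Bx = MulAut.conj x • B := ⟨_, rfl⟩
  have hmemBx : ∀ b ∈ B, x * b * x⁻¹ ∈ Bx := fun b hb => by
    rw [hBx]; exact ⟨b, hb, rfl⟩
  have hBxN : Bx ≤ normalizer (B : Set G) := by
    rw [hBx]
    rintro _ ⟨b, hb, rfl⟩
    exact hx b hb
  have hcardBx : Nat.card Bx = Nat.card B := by
    rw [hBx]; exact card_conj_smul' _ _
  obtain ⟨Y, hY⟩ : ∃ Y : Subgroup G, Y = Bx ⊔ B := ⟨_, rfl⟩
  have hBY : B ≤ Y := hY ▸ le_sup_right
  have hBxY : Bx ≤ Y := hY ▸ le_sup_left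
  have hYN : Y ≤ normalizer (B : Set G) := hY ▸ sup_le hBxN Subgroup.le_normalizer
  obtain ⟨M, hM⟩ : ∃ M : Subgroup G, M = Y ⊓ commutator G := ⟨_, rfl⟩
  have hMY : M ≤ Y := hM ▸ inf_le_left
  have hMG : M ≤ commutator G := hM ▸ inf_le_right
  have hMN : M ≤ normalizer (B : Set G) := hMY.trans hYN
  obtain ⟨C, hC⟩ : ∃ C : Subgroup G, C = B ⊓ centralizer (M : Set G) := ⟨_, rfl⟩
  have hCB : C ≤ B := hC ▸ inf_le_left
  have hCM : C ≤ centralizer (M : Set G) := hC ▸ inf_le_right
  obtain ⟨K, hK⟩ : ∃ K : Subgroup G, K = B ⊓ MulAut.conj x⁻¹ • B := ⟨_, rfl⟩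
  have hvM : ∀ b ∈ B, b⁻¹ * (x * b * x⁻¹) ∈ M := fun b hb => by
    rw [hM]
    exact ⟨Y.mul_mem (Y.inv_mem (hBY hb)) (hBxY (hmemBx b hb)), hcm b⟩
  -- K ≤ C
  have hKC : K ≤ C := by
    intro a ha
    rw [hK] at ha
    obtain ⟨haB, c, hc, hca⟩ := ha
    have hca' : x⁻¹ * c * x = a := by simpa using hca
    have ha' : x * a * x⁻¹ ∈ B := by
      rw [← hca']
      have : x * (x⁻¹ * c * x) * x⁻¹ = c := by group
      rw [this]; exact hc
    rw [hC]
    refine ⟨haB, ?_⟩
    have hcentY : Y ≤ centralizer ({a} : Set G) := by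
      rw [hY]
      refine sup_le ?_ ?_
      · rw [hBx]
        rintro _ ⟨b, hb, rfl⟩
        rw [Subgroup.mem_centralizer_singleton_iff]
        exact (gillam_commute hmeta hBab haB hb ha').symm
      · intro b hb
        rw [Subgroup.mem_centralizer_singleton_iff]
        exact hBc b hb a haB
    show a ∈ centralizer (M : Set G)
    rw [Subgroup.mem_centralizer_iff]
    intro m hm
    have := hcentY (hMY hm)
    rw [Subgroup.mem_centralizer_singleton_iff] at this
    exact this
  -- cardinalities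
  have hcardK : Nat.card K = Nat.card (Bx ⊓ B : Subgroup G) := by
    have : MulAut.conj x • K = Bx ⊓ B := by
      rw [hK, hBx, Subgroup.smul_inf, smul_smul]
      simp [inf_comm]
    rw [← this]; exact (card_conj_smul' _ _).symm
  have e1 := card_sup_mul_card_inf Bx B hBxN
  have e2 := card_sup_mul_card_inf M B hMN
  have hCnM : C ≤ normalizer (M : Set G) := hCM.trans (Subgroup.centralizer_le_normalizer _)
  have e3 := card_sup_mul_card_inf C M hCnM
  have hMB : M ⊓ B = B ⊓ commutator G := by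
    rw [hM]
    apply le_antisymm
    · exact le_inf inf_le_right (inf_le_left.trans inf_le_right)
    · exact le_inf (le_inf (inf_le_left.trans hBY) inf_le_right) inf_le_left
  have hCMle : C ⊓ M ≤ B ⊓ commutator G := le_inf (inf_le_left.trans hCB) (inf_le_right.trans hMG)
  have hYle : Bx ⊔ B ≤ M ⊔ B := by
    refine sup_le ?_ le_sup_right
    rw [hBx]
    rintro _ ⟨b, hb, rfl⟩
    have : (MulAut.conj x) b = b * (b⁻¹ * (x * b * x⁻¹)) := by
      simp [MulAut.conj_apply, mul_assoc]
    show (MulAut.conj x) b ∈ _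
    rw [this]
    exact (M ⊔ B).mul_mem (le_sup_right (a := M) hb) (le_sup_left (b := B) (hvM b hb))
  have c1 : Nat.card (Bx ⊔ B : Subgroup G) ≤ Nat.card (M ⊔ B : Subgroup G) :=
    Subgroup.card_le_of_le hYle
  have c2 : Nat.card (C ⊓ M : Subgroup G) ≤ Nat.card (B ⊓ commutator G : Subgroup G) :=
    Subgroup.card_le_of_le hCMle
  have c3 : Nat.card K ≤ Nat.card C := Subgroup.card_le_of_le hKC
  rw [hMB] at e2
  rw [hcardBx, ← hcardK] at e1
  have posB : 0 < Nat.card B := Nat.card_pos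
  have posD : 0 < Nat.card (B ⊓ commutator G : Subgroup G) := Nat.card_pos
  have hge : Nat.card B ≤ Nat.card (C ⊔ M : Subgroup G) := by
    have key : Nat.card B * (Nat.card B * Nat.card (B ⊓ commutator G : Subgroup G)) ≤
        Nat.card (C ⊔ M : Subgroup G) * (Nat.card B * Nat.card (B ⊓ commutator G : Subgroup G)) := by
      calc Nat.card B * (Nat.card B * Nat.card (B ⊓ commutator G : Subgroup G))
          = (Nat.card (Bx ⊔ B : Subgroup G) * Nat.card K) *
              Nat.card (B ⊓ commutator G : Subgroup G) := by rw [e1]; ring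
        _ ≤ (Nat.card (M ⊔ B : Subgroup G) * Nat.card C) *
              Nat.card (B ⊓ commutator G : Subgroup G) := by gcongr
        _ = (Nat.card (M ⊔ B : Subgroup G) * Nat.card (B ⊓ commutator G : Subgroup G)) *
              Nat.card C := by ring
        _ = (Nat.card C * Nat.card M) * Nat.card B := by rw [e2]; ring
        _ = (Nat.card (C ⊔ M : Subgroup G) * Nat.card (C ⊓ M : Subgroup G)) * Nat.card B := by
              rw [e3]
        _ ≤ (Nat.card (C ⊔ M : Subgroup G) * Nat.card (B ⊓ commutator G : Subgroup G)) *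
              Nat.card B := by gcongr
        _ = _ := by ring
    exact Nat.le_of_mul_le_mul_right key (Nat.mul_pos posB posD)
  -- C ⊔ M abelian
  have hab : IsMulCommutative (C ⊔ M : Subgroup G) := by
    have hcomm : ∀ s ∈ C ⊔ M, ∀ t ∈ C ⊔ M, s * t = t * s := by
      have hle : C ⊔ M ≤ centralizer ((C ⊔ M : Subgroup G) : Set G) := by
        have h1 : C ≤ centralizer ((C ⊔ M : Subgroup G) : Set G) := by
          rw [Subgroup.le_centralizer_iff]
          refine sup_le ?_ ?_
          · intro s hs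
            rw [Subgroup.mem_centralizer_iff]
            intro t ht
            exact hBc t (hCB ht) s (hCB hs)
          · rw [← Subgroup.le_centralizer_iff]; exact hCM
        have h2 : M ≤ centralizer ((C ⊔ M : Subgroup G) : Set G) := by
          rw [Subgroup.le_centralizer_iff]
          refine sup_le hCM ?_
          intro s hs
          rw [Subgroup.mem_centralizer_iff]
          intro t ht
          exact hGc t (hMG ht) s (hMG hs)
        exact sup_le h1 h2
      intro s hs t ht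
      have := hle hs
      rw [Subgroup.mem_centralizer_iff] at this
      exact (this t ht).symm
    exact ⟨⟨fun s t => Subtype.ext (hcomm s.1 s.2 t.1 t.2)⟩⟩
  refine ⟨C ⊔ M, ⟨hab, fun E hE => (hBmax E hE).trans hge⟩, ?_, ?_⟩
  · have hYcl : Y ≤ normalClosure (B : Set G) := by
      rw [hY]
      refine sup_le ?_ Subgroup.le_normalClosure
      rw [hBx]
      rintro _ ⟨b, hb, rfl⟩
      exact (Subgroup.normalClosure_normal).conj_mem b (Subgroup.le_normalClosure hb) x
    exact (sup_le (hCB.trans hBY) hMY).trans hYcl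
  · obtain ⟨b, hb, hbx⟩ := hx'
    have hlt : B ⊓ commutator G < (C ⊔ M) ⊓ commutator G := by
      refine lt_of_le_of_ne ?_ ?_
      · rw [← hMB]
        exact le_inf (inf_le_left.trans le_sup_right) (inf_le_left.trans hMG)
      · intro heq
        have h1 : b⁻¹ * (x * b * x⁻¹) ∈ (C ⊔ M) ⊓ commutator G :=
          ⟨le_sup_right (a := C) (hvM b hb), hcm b⟩
        rw [← heq] at h1
        apply hbx
        have := B.mul_mem hb h1.1
        simpa [mul_assoc] using this
    exact Set.ncard_lt_ncard (s := ((B ⊓ commutator G : Subgroup G) : Set G))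
      (t := (((C ⊔ M) ⊓ commutator G : Subgroup G) : Set G)) hlt (Set.toFinite _)

end Cfsg.Agent.Lib.Helper13
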