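import Cfsg.Agent.Lib.Helper23.PSolv
import Cfsg.Agent.H12.Cores

set_option autoImplicit false
open Cfsg

/-! The dual of Hall–Higman 1.2.3: a `p`-solvable group with `O_p = 1` has `C(O_{p'}) ≤ O_{p'}`. -/

namespace Cfsg.Agent.Lib.Helper13

open Subgroup

theorem eq_top_of_central_pPrime {L : Type*} [Group L] [Finite L] (p : ℕ) [Fact p.Prime]
    (N : Subgroup L) (hNc : N ≤ center L) (hNp : (Nat.card N).Coprime p) (hidx : ∃ m : ℕ, N.index = p ^ m)
    (hcore : pCore p L = ⊥) : N = ⊤ := by
  have hNn : N.Normal := by
    constructor
    intro x hx g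
    have hc := mem_center_iff.1 (hNc hx) g
    rw [hc, mul_assoc, mul_inv_cancel, mul_one]
    exact hx
  obtain ⟨m, hm⟩ := hidx
  obtain ⟨K, hK⟩ := exists_right_complement'_of_coprime (N := N) (by
    rw [hm]
    exact Nat.Coprime.pow_right m hNp)
  have hKn : K.Normal := by
    rw [← normalizer_eq_top_iff, eq_top_iff, ← hK.sup_eq_top]
    refine sup_le ?_ le_normalizer
    intro x hx
    rw [mem_normalizer_iff]
    intro h
    have hc := mem_center_iff.1 (hNc hx) h
    rw [← hc, mul_assoc, mul_inv_cancel, mul_one]
  have hKc : IsPGroup p K := by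
    apply IsPGroup.of_card (n := m)
    rw [← hK.symm.index_eq_card]
    exact hm
  have hKb : K = ⊥ := by
    rw [eq_bot_iff, ← hcore]
    exact Cfsg.H1.le_pCore hKn hKc
  have := hK.sup_eq_top
  rwa [hKb, sup_bot_eq] at this

theorem centralizer_pPrimeCore_le_of_isPSolvable {G : Type*} [Group G] [Finite G] (p : ℕ) [Fact p.Prime]
    (hs : IsPSolvable p G) (hcore : pCore p G = ⊥) :
    centralizer (pPrimeCore p G : Set G) ≤ pPrimeCore p G := by
  have hPn : (pPrimeCore p G).Normal := Cfsg.H1.pPrimeCore_normal p
  have hPp : (Nat.card (pPrimeCore p G)).Coprime p := Cfsg.Agent.H12.pPrimeCore_coprime p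
  obtain ⟨n, H, h0, hn, hmono, hnorm, hstep⟩ := hs
  set C := centralizer (pPrimeCore p G : Set G) with hC
  have hCn : C.Normal := inferInstance
  have key : ∀ i : Fin (n + 1), H i ⊓ C ≤ pPrimeCore p G := by
    intro i
    induction i using Fin.induction with
    | zero => rw [h0, bot_inf_eq]; exact bot_le
    | succ i ih =>
      have hn1 : (H i.castSucc).Normal := hnorm _
      have hn2 : (H i.succ).Normal := hnorm _
      set L := H i.succ ⊓ C with hL
      set L0 := H i.castSucc ⊓ C with hL0
      have hLn : L.Normal := inferInstance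
      have hle : L0 ≤ L := inf_le_inf_right _ (hmono (Fin.castSucc_lt_succ).le)
      have hL0p : (Nat.card L0).Coprime p := Nat.Coprime.coprime_dvd_left (card_dvd_of_le ih) hPp
      have hdvd : L0.relIndex L ∣ (H i.castSucc).relIndex (H i.succ) := by
        have h1 : L0.relIndex L = (H i.castSucc).relIndex L := by
          rw [← inf_relIndex_right, ← inf_relIndex_right (H i.castSucc) L]
          congr 1
          rw [hL0, hL]
          apply le_antisymm
          · exact le_inf (inf_le_left.trans inf_le_left) inf_le_right
          · exact le_inf (le_inf inf_le_left (inf_le_right.trans inf_le_right)) inf_le_right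
        rw [h1]
        exact Cfsg.Agent.Lib.Helper23.relIndex_dvd_relIndex_of_normal _ inf_le_left
      have hcardL : Nat.card L0 * L0.relIndex L = Nat.card L := by
        rw [← relIndex_bot_left, ← relIndex_bot_left]
        exact relIndex_mul_relIndex _ _ _ bot_le hle
      rcases hstep i with ⟨m, hm⟩ | hcop
      · have h1 : L0.subgroupOf L = ⊤ := by
          apply eq_top_of_central_pPrime p
          · intro x hx
            rw [mem_center_iff]
            intro y
            apply Subtype.ext
            have hxP : (x : G) ∈ pPrimeCore p G := ih hx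
            have hyC : (y : G) ∈ C := y.2.2
            rw [hC, mem_centralizer_iff] at hyC
            exact (hyC _ hxP).symm
          · rw [Nat.card_congr (subgroupOfEquivOfLe hle).toEquiv]
            exact hL0p
          · rw [hm] at hdvd
            obtain ⟨j, -, hj⟩ := (Nat.dvd_prime_pow Fact.out).1 hdvd
            exact ⟨j, hj⟩
          · have h2 := Cfsg.Agent.H12.pCore_map_le p L
            rw [hcore, le_bot_iff, (map_eq_bot_iff_of_injective _ L.subtype_injective)] at h2
            exact h2
        rw [subgroupOf_eq_top] at h1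
        exact h1.trans ih
      · apply Cfsg.Agent.H12.le_pPrimeCore hLn
        rw [← hcardL]
        exact Nat.Coprime.mul_left hL0p (Nat.Coprime.coprime_dvd_left hdvd hcop)
  have := key (Fin.last n)
  rwa [hn, top_inf_eq] at this

end Cfsg.Agent.Lib.Helper13
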