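import Cfsg.Agent.Lib.Helper13.Amb3
import Cfsg.Agent.Lib.Helper13.JFun
import Cfsg.Agent.S0600
import Cfsg.Agent.S0601
import Cfsg.Agent.S0606

set_option autoImplicit false
open Cfsg

/-! Solvable `S₄`-free groups with Sylow `2`-subgroups of class at most two. -/

namespace Cfsg.Agent.Lib.Helper13

open Subgroup
open scoped commutatorElement

universe u

/-- the subgroup generated by the `Ω₁(Z(S))` -/
def VOm (p : ℕ) (G : Type*) [Group G] : Subgroup G :=
  ⨆ S : Sylow p G, omegaOne p ((S : Subgroup G) ⊓ centralizer ((S : Subgroup G) : Set G))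

theorem VOm_gen (p : ℕ) (G : Type*) [Group G] :
    VOm p G = ⨆ S : Sylow p G, VOm p G ⊓ centralizer ((S : Subgroup G) : Set G) :=
  le_antisymm (iSup_le fun S => le_iSup_of_le S (le_inf (le_iSup (fun S : Sylow p G =>
    omegaOne p ((S : Subgroup G) ⊓ centralizer ((S : Subgroup G) : Set G))) S)
      ((omegaOne_le _).trans inf_le_right))) (iSup_le fun _ => inf_le_left)

/-- a subgroup stabilizing `1 ≤ V ≤ Q` with `V` central and `C(Q) ≤ Q` lies in `O_p` -/
theorem le_pCore_of_stab {p : ℕ} [Fact p.Prime] {G : Type*} [Group G] [Finite G]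
    (hc : centralizer (pCore p G : Set G) ≤ pCore p G) (V : Subgroup G) [V.Normal] (hV : IsPGroup p V)
    (hVc : centralizer (V : Set G) = ⊤) : sectionKernel (pCore p G) V ≤ pCore p G := by
  have hQn : (pCore p G).Normal := Cfsg.H1.pCore_normal p
  apply Cfsg.H1.le_pCore (sectionKernel_normal _ _)
  intro g
  obtain ⟨k, m, hm, hkm⟩ := Nat.exists_eq_pow_mul_and_not_dvd (n := orderOf (g : G)) (orderOf_pos _).ne' p
    (Fact.out : p.Prime).ne_one
  refine ⟨k, Subtype.ext ?_⟩
  set z := (g : G) ^ p ^ k with hz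
  have hzm : z ^ m = 1 := by rw [hz, ← pow_mul, ← hkm, pow_orderOf_eq_one]
  have hzo : (orderOf z).Coprime p := by
    apply Nat.Coprime.coprime_dvd_left (orderOf_dvd_of_pow_eq_one hzm)
    exact (Nat.coprime_comm.mp ((Fact.out : p.Prime).coprime_iff_not_dvd.mpr hm))
  have hzK : z ∈ sectionKernel (pCore p G) V := pow_mem g.2 _
  have h1 : z ∈ centralizer (pCore p G : Set G) :=
    mem_centralizer_of_stab hV hzo (hVc ▸ mem_top z) (mem_sectionKernel_iff.mp hzK)
  have h2 : z ∈ pCore p G := hc h1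
  obtain ⟨j, hj⟩ := (Cfsg.H1.pCore_isPGroup (G := G) p) ⟨z, h2⟩
  have h3 : z ^ p ^ j = 1 := congrArg Subtype.val hj
  have h4 : orderOf z ∣ p ^ j := orderOf_dvd_of_pow_eq_one h3
  have h5 : orderOf z = 1 := Nat.eq_one_of_dvd_coprimes (Nat.Coprime.pow_right j hzo) dvd_rfl h4
  exact orderOf_eq_one_iff.mp h5

theorem s4free_class2 (n : ℕ) : ∀ (G : Type u) [Group G] [Finite G] [Group.IsSolvable G], Nat.card G = n →
    ¬ Involves (Equiv.Perm (Fin 4)) G → ∀ S : Sylow 2 G,
    (∀ x ∈ (S : Subgroup G), ∀ y ∈ (S : Subgroup G), ∀ z ∈ (S : Subgroup G), ⁅⁅x, y⁆, z⁆ = 1) →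
    normalizer ((thompsonSubgroupOf 2 (S : Subgroup G)) : Set G) ⊔ pPrimeCore 2 G = ⊤ := by
  have : Fact (Nat.Prime 2) := ⟨Nat.prime_two⟩
  induction n using Nat.strong_induction_on with
  | _ n IH =>
  intro G _ _ _ hn hS4 S hcl
  by_cases hO : pPrimeCore 2 G = ⊥
  swap
  · -- reduction modulo the core
    have hsurj := QuotientGroup.mk'_surjective (pPrimeCore 2 G)
    have hker : (Nat.card (QuotientGroup.mk' (pPrimeCore 2 G)).ker).Coprime 2 := by
      rw [QuotientGroup.ker_mk']
      exact Cfsg.Agent.H12.pPrimeCore_coprime 2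
    have h1 := IH _ (hn ▸ Cfsg.Agent.H12.card_quotient_lt hO) (G ⧸ pPrimeCore 2 G) rfl
      (fun h => hS4 (Involves.of_quotient h)) (S.mapSurjective hsurj) ?_
    · rw [Cfsg.H9.pPrimeCore_quotient, sup_bot_eq, Sylow.coe_mapSurjective, ← inducedFunctor_WJ,
        ← Cfsg.Agent.H12.inducedFunctor_map isCharPFunctor_WJ _ _ S.2
          (Cfsg.Agent.H12.injOn_of_coprime_ker hker S.2),
        Cfsg.Agent.H12.normalizer_map_of_coprime_ker hsurj hker
          (S.2.to_le (Cfsg.Agent.H12.inducedFunctor_le _))] at h1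
      have h2 := congrArg (Subgroup.comap (QuotientGroup.mk' (pPrimeCore 2 G))) h1
      rw [comap_map_eq, QuotientGroup.ker_mk', comap_top] at h2
      exact h2
    · rintro _ ⟨x, hx, rfl⟩ _ ⟨y, hy, rfl⟩ _ ⟨z, hz, rfl⟩
      rw [← map_commutatorElement, ← map_commutatorElement, hcl x hx y hy z hz, map_one]
  rw [hO, sup_bot_eq]
  have hc : centralizer (pCore 2 G : Set G) ≤ pCore 2 G := constrained_of_solvable hO
  obtain ⟨hVn, hVE, -⟩ := Cfsg.Agent.S0601.result (p := 2) hc
  change (VOm 2 G).Normal at hVn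
  change IsElementaryAbelian 2 (VOm 2 G) at hVE
  have hOp : pCore 2 (G ⧸ centralizer (VOm 2 G : Set G)) = ⊥ := Cfsg.Agent.S0600.result _ hVE (VOm_gen 2 G)
  have hS1 := selfcent_of_solvable hOp
  have hall : ∀ A ∈ maxElementaryAbelianSubgroups 2 G, A ≤ centralizer (VOm 2 G : Set G) := by
    intro A hA
    by_contra hcon
    exact hS4 (involves_S4_of_offender _ hVE hS1 (Cfsg.Agent.S0606.result _ hVE A hA) hcon)
  have hJ : thompsonSubgroupOf 2 (S : Subgroup G) ≤ centralizer (VOm 2 G : Set G) := by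
    obtain ⟨A, hA, hAS⟩ := exists_maxEA_le_sylow S
    exact (thompsonOf_le hA hAS).trans (sSup_le hall)
  by_cases hC : centralizer (VOm 2 G : Set G) = ⊤
  · have hQn : (pCore 2 G).Normal := Cfsg.H1.pCore_normal 2
    have hle : thompsonSubgroupOf 2 (S : Subgroup G) ≤ pCore 2 G := by
      rw [thompsonOf_eq_sSup]
      apply sSup_le
      intro A hA
      refine le_trans ?_ (le_pCore_of_stab hc (VOm 2 G) (IsEA.isPGroup hVE) hC)
      intro a ha
      rw [mem_sectionKernel_iff]
      intro x hx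
      have haS := hA.1 ha
      have hxS : x ∈ (S : Subgroup G) := Cfsg.Agent.H12.pCore_le_sylow S hx
      have hcS : ⁅a, x⁆ ∈ (S : Subgroup G) :=
        mul_mem (mul_mem (mul_mem haS hxS) (inv_mem haS)) (inv_mem hxS)
      have hcen : ∀ z ∈ (S : Subgroup G), Commute ⁅a, x⁆ z := fun z hz =>
        commutatorElement_eq_one_iff_commute.mp (hcl a haS x hxS z hz)
      change ⁅a, x⁆ ∈ VOm 2 G
      apply le_iSup (fun S : Sylow 2 G =>
        omegaOne 2 ((S : Subgroup G) ⊓ centralizer ((S : Subgroup G) : Set G))) S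
      apply mem_omegaOne
      · refine mem_inf.mpr ⟨hcS, ?_⟩
        rw [mem_centralizer_iff]
        intro z hz
        exact (hcen z hz).symm
      · rw [← Cfsg.H1.commutator_pow_left_of_central (hcen x hxS) (hcen a haS) 2, hA.2.1.2 a ha]
        simp
    have h1 := thompsonOf_eq_of_le (p := 2) (Cfsg.Agent.H12.pCore_le_sylow S) hle
    rw [← h1]
    exact eq_top_iff.mpr ((normalizer_eq_top_iff.mpr hQn).ge.trans (normalizer_le_normalizer_thompsonOf _))
  · set C := centralizer (VOm 2 G : Set G) with hCdef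
    obtain ⟨T, hT⟩ := exists_sylow_inf_normal S C
    have hJeq := thompsonOf_eq_of_le (p := 2) (inf_le_left : (S : Subgroup G) ⊓ C ≤ S)
      (le_inf (thompsonOf_le_self _) hJ)
    have h1 := IH _ (hn ▸ Cfsg.Agent.H12.card_subgroup_lt hC) C rfl (fun h => hS4 (Involves.of_subgroup h)) T ?_
    · have h2 : pPrimeCore 2 C = ⊥ := by
        have := Cfsg.Agent.Lib.Helper23.h23_map_pPrimeCore_le 2 C
        rw [hO, le_bot_iff, map_eq_bot_iff_of_injective _ C.subtype_injective] at this
        exact this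
      rw [h2, sup_bot_eq] at h1
      have h3 : (thompsonSubgroupOf 2 (T : Subgroup C)).map C.subtype = thompsonSubgroupOf 2 (S : Subgroup G) := by
        rw [← inducedFunctor_WJ, Cfsg.Agent.H12.inducedFunctor_map isCharPFunctor_WJ _ _ T.2
          C.subtype_injective.injOn, hT, inducedFunctor_WJ]
        exact hJeq
      have h4 : C ≤ normalizer (thompsonSubgroupOf 2 (S : Subgroup G) : Set G) := by
        rw [← h3]
        have := le_normalizer_map (H := thompsonSubgroupOf 2 (T : Subgroup C)) C.subtype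
        rw [h1, ← MonoidHom.range_eq_map, C.range_subtype] at this
        exact this
      rw [eq_top_iff]
      intro g _
      obtain ⟨c, hcC, m, hm, rfl⟩ := frattini_inf S C g
      refine mul_mem (h4 hcC) ?_
      have h5 := normalizer_le_normalizer_thompsonOf (p := 2) _ hm
      rwa [hJeq] at h5
    · intro x hx y hy z hz
      have hmem : ∀ w ∈ (T : Subgroup C), (w : G) ∈ (S : Subgroup G) := fun w hw =>
        (hT.le ⟨w, hw, rfl⟩).1
      exact Subtype.ext (hcl x (hmem x hx) y (hmem y hy) z (hmem z hz))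

end Cfsg.Agent.Lib.Helper13
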